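/-
Piece [P5] of helper80's S2686 farm (#961), modulo [P1] (`rigO`), which is taken as a hypothesis here.
-/
import Cfsg.Agent.Lib.Helper80.LBP.Defs
import Cfsg.Agent.Lib.Helper80.SubF3
import Cfsg.Agent.Lib.Helper43.PA.Main

set_option autoImplicit false

namespace Cfsg.Agent.Lib.Helper62.LBP

open Matrix Cfsg.Agent.Lib.Helper43.PA Cfsg.Agent.Lib.Helper44 Cfsg.Agent.Lib.Helper80.LBP

variable {n : ℕ} {F : Type*} [Field F]

/-- the fixed points of `s ↦ σ(s⁻ᵀ)`. -/
lemma theta_fix_iff (σ : F ≃+* F) (hσ2 : σ * σ = 1) (s : SpecialLinearGroup (Fin n) F) :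
    (fieldSL σ * invT : MulAut (SpecialLinearGroup (Fin n) F)) s = s ↔
      (s.1.map σ)ᵀ * s.1 = 1 := by
  have hss : ∀ t : SpecialLinearGroup (Fin n) F, fieldSL σ (fieldSL σ t) = t := by
    intro t
    have : (fieldSL σ * fieldSL σ : MulAut (SpecialLinearGroup (Fin n) F)) t = t := by
      rw [← map_mul, hσ2, map_one]; rfl
    exact this
  have hcoe : ((fieldSL σ s).transpose * s).1 = (s.1.map σ)ᵀ * s.1 := rfl
  constructor
  · intro h
    have h1 : fieldSL σ (invT s) = s := h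
    have h2 : invT s = fieldSL σ s := by rw [← h1, hss, h1]
    rw [invT_apply] at h2
    have h3 : s⁻¹ = (fieldSL σ s).transpose := by rw [← h2, transpose_transpose_SL]
    rw [← hcoe, ← h3, inv_mul_cancel]
    rfl
  · intro h
    have h1 : (fieldSL σ s).transpose * s = 1 := Subtype.ext (by rw [hcoe, h]; rfl)
    have h2 : s⁻¹ = (fieldSL σ s).transpose := (eq_inv_of_mul_eq_one_left h1).symm
    show fieldSL σ (invT s) = s
    rw [invT_apply, h2, transpose_transpose_SL, hss]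

lemma exists_not_pm (h2 : (2 : F) ≠ 0) (σ : F ≃+* F) (hσ : σ ≠ 1) :
    ∃ x : F, x ≠ 0 ∧ σ x ≠ x ∧ σ x ≠ -x := by
  obtain ⟨y, hy⟩ : ∃ y, σ y ≠ y := by
    by_contra hc
    push Not at hc
    exact hσ (RingEquiv.ext hc)
  have hy0 : y ≠ 0 := by
    rintro rfl
    exact hy (map_zero σ)
  by_cases h : σ y = -y
  · refine ⟨y + 1, ?_, ?_, ?_⟩
    · intro h0
      have h1 : y = -1 := eq_neg_of_add_eq_zero_left h0
      apply hy
      rw [h1, map_neg, map_one]
    · rw [map_add, map_one, h]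
      intro h1
      have h3 : (2 : F) * y = 0 := by linear_combination -h1
      rcases mul_eq_zero.1 h3 with h4 | h4
      · exact h2 h4
      · exact hy0 h4
    · rw [map_add, map_one, h]
      intro h1
      apply h2
      linear_combination h1
  · exact ⟨y, hy0, hy, h⟩

/-- the diagonal matrix `diag(ζ, ζ⁻¹, 1, …, 1)`. -/
noncomputable def dg (hn : 3 ≤ n) (ζ : F) : Fin n → F :=
  Function.update (Function.update 1 (⟨0, by omega⟩ : Fin n) ζ) (⟨1, by omega⟩ : Fin n) ζ⁻¹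

lemma prod_dg (hn : 3 ≤ n) (ζ : F) (hζ : ζ ≠ 0) : ∏ i, dg hn ζ i = 1 := by
  unfold dg
  rw [Finset.prod_update_of_mem (Finset.mem_univ _)]
  have h01 : (⟨0, by omega⟩ : Fin n) ∈ Finset.univ \ {(⟨1, by omega⟩ : Fin n)} := by
    simp [Fin.ext_iff]
  rw [Finset.prod_update_of_mem h01]
  simp [hζ]

lemma dg_zero (hn : 3 ≤ n) (ζ : F) : dg hn ζ (⟨0, by omega⟩ : Fin n) = ζ := by
  unfold dg
  rw [Function.update_of_ne (by simp [Fin.ext_iff]), Function.update_self]

lemma dg_two (hn : 3 ≤ n) (ζ : F) : dg hn ζ (⟨2, by omega⟩ : Fin n) = 1 := by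
  unfold dg
  rw [Function.update_of_ne (by simp [Fin.ext_iff]), Function.update_of_ne (by simp [Fin.ext_iff])]
  rfl

lemma dg_mul (hn : 3 ≤ n) (σ : F ≃+* F) (ζ : F) (hζ : ζ ≠ 0) (hσζ : σ ζ = ζ⁻¹) (i : Fin n) :
    σ (dg hn ζ i) * dg hn ζ i = 1 := by
  unfold dg
  by_cases h1 : i = (⟨1, by omega⟩ : Fin n)
  · subst h1
    rw [Function.update_self, map_inv₀, hσζ, inv_inv, mul_inv_cancel₀ hζ]
  · rw [Function.update_of_ne h1]
    by_cases h0 : i = (⟨0, by omega⟩ : Fin n)
    · subst h0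
      rw [Function.update_self, hσζ, inv_mul_cancel₀ hζ]
    · rw [Function.update_of_ne h0]
      simp

/-- hypothesis form of [P1] for the fixed field of `σ` and the form `G = 1`. -/
def Rig (n : ℕ) (σ : F ≃+* F) : Prop :=
  ∀ (h : GL (Fin n) F) (τ : F ≃+* F),
    (∀ s : SpecialLinearGroup (Fin n) (fixK σ), s.1ᵀ * 1 * s.1 = 1 →
      ∃ z : F, h.1 * (s.1.map (fixK σ).subtype).map τ =
        z • ((s.1.map (fixK σ).subtype) * h.1)) →
    (∀ x : fixK σ, τ ((fixK σ).subtype x) = (fixK σ).subtype x) ∧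
      ∃ c : F, h.1 = c • (1 : Matrix (Fin n) (Fin n) F)

lemma cG_fA_eq_one [Finite F] (h2 : (2 : F) ≠ 0) (hn : 3 ≤ n) (σ : F ≃+* F) (hσ : σ ≠ 1)
    (hσ2 : σ * σ = 1) (rig : Rig n σ) (h : GL (Fin n) F) (τ : F ≃+* F)
    (ha : ∀ k ∈ LL (fieldSL σ * invT : MulAut (SpecialLinearGroup (Fin n) F)),
      (cG h * fA τ : MulAut (ProjectiveSpecialLinearGroup (Fin n) F)) k = k) : (cG h * fA τ : MulAut (ProjectiveSpecialLinearGroup (Fin n) F)) = 1 := by
  have hss : ∀ t : F, σ (σ t) = t := fun t => DFunLike.congr_fun hσ2 t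
  obtain ⟨hτ, c, hc⟩ := rig h τ (by
    intro s hs
    set S : SpecialLinearGroup (Fin n) F := SpecialLinearGroup.map (fixK σ).subtype s with hS
    have hS1 : S.1 = s.1.map (fixK σ).subtype := rfl
    have hfix : (fieldSL σ * invT : MulAut (SpecialLinearGroup (Fin n) F)) S = S := by
      rw [theta_fix_iff σ hσ2]
      have e1 : S.1.map σ = S.1 := by
        ext i j
        exact mem_fixK.1 (s.1 i j).2
      rw [Matrix.mul_one] at hs
      have e2 := congrArg (fun M => M.map (fixK σ).subtype) hs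
      simp only [Matrix.map_mul, Matrix.transpose_map] at e2
      rw [e1, hS1, e2]
      simp
    have h3 := ha _ (mk_mem_LL hfix)
    have h4 : (cG h * fA τ : MulAut (ProjectiveSpecialLinearGroup (Fin n) F))
        (QuotientGroup.mk S : ProjectiveSpecialLinearGroup (Fin n) F) =
        QuotientGroup.mk (conjSL h (fieldSL τ S)) := rfl
    rw [h4] at h3
    obtain ⟨r, hr⟩ := exists_smul_of_mk_eq h3.symm
    refine ⟨r, ?_⟩
    rw [conjSL_coe, fieldSL_coe] at hr
    have h5 : (h⁻¹ : GL (Fin n) F).1 * h.1 = 1 := by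
      rw [← Units.val_mul, inv_mul_cancel]; rfl
    have h6 := congrArg (· * h.1) hr
    simp only [Matrix.mul_assoc, h5, Matrix.mul_one, Matrix.smul_mul] at h6
    exact h6)
  have hc0 : c ≠ 0 := by
    rintro rfl
    have h5 : h.1 * (h⁻¹ : GL (Fin n) F).1 = 1 := by
      rw [← Units.val_mul, mul_inv_cancel]; rfl
    rw [hc, zero_smul, Matrix.zero_mul] at h5
    have := congrFun (congrFun h5 (⟨0, by omega⟩ : Fin n)) (⟨0, by omega⟩ : Fin n)
    simp at this
  have hh : h = scGL (Units.mk0 c hc0) := by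
    apply Units.ext
    rw [scGL_coe, hc]
    simp [Matrix.smul_one_eq_diagonal]
  have hcG : (cG h : MulAut (ProjectiveSpecialLinearGroup (Fin n) F)) = 1 := by
    rw [hh]; exact cG_scGL _
  have hmem : τ ∈ Subgroup.zpowers σ :=
    Cfsg.Agent.Lib.Helper80.SubF.mem_zpowers_of_fix σ τ (fun x hx => hτ ⟨x, mem_fixK.2 hx⟩)
  obtain ⟨k, hk⟩ := Subgroup.mem_zpowers_iff.1 hmem
  have hσsq : σ ^ (2 : ℤ) = 1 := by
    rw [show (2 : ℤ) = ((2 : ℕ) : ℤ) from rfl, zpow_natCast, sq]; exact hσ2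
  rcases Int.even_or_odd' k with ⟨m, hm | hm⟩
  · have : τ = 1 := by rw [← hk, hm, _root_.zpow_mul, hσsq, _root_.one_zpow]
    rw [hcG, this, map_one, one_mul]
  · exfalso
    have hτσ : τ = σ := by rw [← hk, hm, _root_.zpow_add, _root_.zpow_mul, hσsq, _root_.one_zpow, one_mul, _root_.zpow_one]
    obtain ⟨x, hx0, hx1, hx2⟩ := exists_not_pm h2 σ hσ
    have hσx0 : σ x ≠ 0 := by
      intro h0
      exact hx0 ((map_eq_zero σ).1 h0)
    have hζ : x / σ x ≠ 0 := div_ne_zero hx0 hσx0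
    have hσζ : σ (x / σ x) = (x / σ x)⁻¹ := by
      rw [map_div₀, hss, inv_div]
    let s : SpecialLinearGroup (Fin n) F := ⟨Matrix.diagonal (dg hn (x / σ x)), by
      rw [Matrix.det_diagonal, prod_dg hn _ hζ]⟩
    have hs1 : s.1 = Matrix.diagonal (dg hn (x / σ x)) := rfl
    have hfix : (fieldSL σ * invT : MulAut (SpecialLinearGroup (Fin n) F)) s = s := by
      rw [theta_fix_iff σ hσ2, hs1, Matrix.diagonal_map (map_zero σ), Matrix.diagonal_transpose,
        Matrix.diagonal_mul_diagonal, ← Matrix.diagonal_one]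
      congr 1
      funext i
      exact dg_mul hn σ _ hζ hσζ i
    have h3 := ha _ (mk_mem_LL hfix)
    rw [hcG, one_mul, hτσ] at h3
    have h4 : (fA σ) (QuotientGroup.mk s : ProjectiveSpecialLinearGroup (Fin n) F) =
        QuotientGroup.mk (fieldSL σ s) := rfl
    rw [h4] at h3
    obtain ⟨r, hr⟩ := exists_smul_of_mk_eq h3.symm
    rw [fieldSL_coe, hs1, Matrix.diagonal_map (map_zero σ)] at hr
    have e2 := congrFun (congrFun hr (⟨2, by omega⟩ : Fin n)) (⟨2, by omega⟩ : Fin n)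
    have e0 := congrFun (congrFun hr (⟨0, by omega⟩ : Fin n)) (⟨0, by omega⟩ : Fin n)
    simp only [Matrix.diagonal_apply_eq, Matrix.smul_apply, dg_two, dg_zero,
      map_one, smul_eq_mul, mul_one] at e2 e0
    rw [← e2, one_mul, hσζ] at e0
    have e3 : (σ x - x) * (σ x + x) = 0 := by
      rw [inv_div] at e0
      field_simp at e0
      linear_combination e0
    rcases mul_eq_zero.1 e3 with e4 | e4
    · exact hx1 (sub_eq_zero.1 e4)
    · exact hx2 (eq_neg_of_add_eq_zero_left e4)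

/-- [P5] modulo [P1]. -/
theorem hc_U_of_rig [Fintype F] (h2 : (2 : F) ≠ 0) (hn : 3 ≤ n) (σ : F ≃+* F) (hσ : σ ≠ 1)
    (hσ2 : σ * σ = 1) (rig : Rig n σ) (a : MulAut (ProjectiveSpecialLinearGroup (Fin n) F))
    (ha : ∀ k ∈ LL (fieldSL σ * invT), a k = k) : a ^ 2 = 1 := by
  obtain ⟨p, hp⟩ := CharP.exists F
  have : Fact p.Prime := ⟨CharP.char_is_prime F p⟩
  obtain ⟨f, -, hF⟩ := FiniteField.card F p
  obtain ⟨g, τ, h | h⟩ := aut_factor hF f.pos (by omega) a
  · rw [h, cG_fA_eq_one h2 hn σ hσ hσ2 rig g τ (by rw [← h]; exact ha), one_pow]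
  · have hθ : (pslAut (fieldSL σ * invT) : MulAut (ProjectiveSpecialLinearGroup (Fin n) F)) =
        fA σ * gam := map_mul _ _ _
    have h5 : a * (fA σ * gam) = cG g * fA (τ * σ) := by
      rw [h, map_mul]
      calc cG g * fA τ * gam * (fA σ * gam) = cG g * fA τ * (gam * fA σ) * gam := by group
        _ = cG g * fA τ * (fA σ * gam) * gam := by rw [gam_mul_fA]
        _ = cG g * fA τ * fA σ * (gam * gam) := by group
        _ = _ := by rw [gam_mul_gam, mul_one, mul_assoc]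
    have h6 : (cG g * fA (τ * σ) : MulAut (ProjectiveSpecialLinearGroup (Fin n) F)) = 1 :=
      cG_fA_eq_one h2 hn σ hσ hσ2 rig g (τ * σ) (by
        intro k hk
        rw [← h5]
        show a ((fA σ * gam : MulAut (ProjectiveSpecialLinearGroup (Fin n) F)) k) = k
        rw [← hθ, LL_fix _ k hk, ha k hk])
    have h7 : a = (fA σ * gam)⁻¹ := eq_inv_of_mul_eq_one_left (h5.trans h6)
    have h8 : (fA σ * gam : MulAut (ProjectiveSpecialLinearGroup (Fin n) F)) ^ 2 = 1 := by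
      rw [sq]
      calc fA σ * gam * (fA σ * gam) = fA σ * (gam * fA σ) * gam := by group
        _ = fA σ * (fA σ * gam) * gam := by rw [gam_mul_fA]
        _ = (fA σ * fA σ) * (gam * gam) := by group
        _ = 1 := by rw [gam_mul_gam, ← map_mul, hσ2, map_one, one_mul]
    rw [h7, inv_pow, h8, inv_one]

end Cfsg.Agent.Lib.Helper62.LBP
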