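/-
Piece [P5] of helper80's S2686 farm (#961).
-/
import Cfsg.Agent.Lib.Helper62.LBP5a
import Cfsg.Agent.Lib.Helper8.LBP1

set_option autoImplicit false

namespace Cfsg.Agent.Lib.Helper62.LBP

open Matrix Cfsg.Agent.Lib.Helper43.PA Cfsg.Agent.Lib.Helper44 Cfsg.Agent.Lib.Helper80.LBP

variable {n : ℕ} {F : Type*} [Field F]

/-- [P5] -/
theorem hc_U [Fintype F] (h2 : (2 : F) ≠ 0) (hn : 3 ≤ n) (σ : F ≃+* F) (hσ : σ ≠ 1)
    (hσ2 : σ * σ = 1) (a : MulAut (ProjectiveSpecialLinearGroup (Fin n) F))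
    (ha : ∀ k ∈ LL (fieldSL σ * invT), a k = k) : a ^ 2 = 1 := by
  have : Fintype (fixK σ) := Fintype.ofFinite _
  have h2' : (2 : fixK σ) ≠ 0 := by
    intro h
    apply h2
    have h3 := congrArg (fixK σ).subtype h
    rw [map_ofNat, map_zero] at h3
    exact h3
  exact hc_U_of_rig h2 hn σ hσ hσ2 (fun h τ H =>
    Cfsg.Agent.Lib.Helper8.LBP.rigO (fixK σ).subtype h2' hn 1 transpose_one (by simp) h τ H) a ha

end Cfsg.Agent.Lib.Helper62.LBP
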