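/-
Piece [P6] of helper80's S2686 farm (#961): nontrivial normal subgroups of the image of `SU_n` in
`PSL_n` have even order.
-/
import Cfsg.Agent.Lib.Helper62.LBP5a
import Cfsg.Agent.Lib.Helper43.PA.GFCent
import Cfsg.Agent.Lib.Helper5.SUSimple
import Cfsg.Agent.Lib.Helper5.SUCenter

set_option autoImplicit false

namespace Cfsg.Agent.Lib.Helper62.LBP

open Matrix Cfsg.Agent.Lib.Helper43.PA Cfsg.Agent.Lib.Helper44 Cfsg.Agent.Lib.Helper80.LBP

variable {n : ℕ} {F : Type*} [Field F]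

lemma herm_iff (σ : F ≃+* F) (hss : ∀ t : F, σ (σ t) = t) (A : Matrix (Fin n) (Fin n) F) :
    (A.map σ)ᵀ * A = 1 ↔ Aᵀ * A.map σ = 1 := by
  have hmm : (A.map σ).map σ = A := by
    ext i j
    exact hss _
  have h1 : (1 : Matrix (Fin n) (Fin n) F).map σ = 1 := by simp
  constructor
  · intro h
    have h3 : ((A.map σ)ᵀ * A).map σ = Aᵀ * A.map σ := by
      rw [Matrix.map_mul, Matrix.transpose_map, hmm]
    rw [← h3, h, h1]
  · intro h
    have h3 : (Aᵀ * A.map σ).map σ = (A.map σ)ᵀ * A := by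
      rw [Matrix.map_mul, Matrix.transpose_map, hmm]
    rw [← h3, h, h1]

lemma theta_fix_iff_SU (σ : F ≃+* F) (hσ2 : σ * σ = 1) {q : ℕ} (hq : ∀ t, σ t = t ^ q)
    (s : SpecialLinearGroup (Fin n) F) :
    (fieldSL σ * invT : MulAut (SpecialLinearGroup (Fin n) F)) s = s ↔ s ∈ Cfsg.SU n F q := by
  have hss : ∀ t : F, σ (σ t) = t := fun t => DFunLike.congr_fun hσ2 t
  have h1 : s ∈ Cfsg.SU n F q ↔ (SpecialLinearGroup.toGL s) ∈ Cfsg.GU n F q := Iff.rfl
  rw [theta_fix_iff σ hσ2, h1, mem_GU_iff_matrix σ hq]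
  have h2 : (SpecialLinearGroup.toGL s).1 = s.1 := rfl
  rw [h2]
  exact herm_iff σ hss s.1

lemma exists_q [Fintype F] (σ : F ≃+* F) (hσ : σ ≠ 1) (hσ2 : σ * σ = 1) :
    ∃ q : ℕ, Fintype.card F = q ^ 2 := by
  obtain ⟨p, hp⟩ := CharP.exists F
  have : Fact p.Prime := ⟨CharP.char_is_prime F p⟩
  obtain ⟨f, -, hF⟩ := FiniteField.card F p
  have ho : orderOf σ = 2 := orderOf_eq_prime (by rw [sq]; exact hσ2) hσ
  obtain ⟨m, hm⟩ := orderOf_dvd_of_card hF σ
  refine ⟨p ^ m, ?_⟩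
  rw [hF, hm, ho, ← pow_mul, mul_comm]

/-- [P6] -/
theorem hb_U [Fintype F] (h2 : (2 : F) ≠ 0) (hn : 3 ≤ n) (σ : F ≃+* F) (hσ : σ ≠ 1)
    (hσ2 : σ * σ = 1)
    (M : Subgroup (ProjectiveSpecialLinearGroup (Fin n) F)) (hM : M ≤ LL (fieldSL σ * invT))
    (hnorm : ∀ l ∈ LL (fieldSL σ * invT), ∀ k ∈ M, l * k * l⁻¹ ∈ M) (hne : M ≠ ⊥) :
    2 ∣ Nat.card M := by
  obtain ⟨q, hF⟩ := exists_q σ hσ hσ2
  have hq := invol_eq_pow hF σ hσ hσ2
  have h32 : ¬ (n = 3 ∧ q = 2) := by
    rintro ⟨-, rfl⟩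
    have h4 : ((Fintype.card F : ℕ) : F) = 0 := FiniteField.cast_card_eq_zero F
    rw [hF] at h4
    apply h2
    have h5 : (2 : F) * 2 = 0 := by
      norm_num at h4 ⊢
      exact h4
    exact mul_self_eq_zero.1 h5
  let π : Cfsg.SU n F q →* ProjectiveSpecialLinearGroup (Fin n) F :=
    (QuotientGroup.mk' (Subgroup.center (SpecialLinearGroup (Fin n) F))).comp
      (Cfsg.SU n F q).subtype
  have hπL : ∀ g : Cfsg.SU n F q, π g ∈ LL (fieldSL σ * invT) := fun g =>
    mk_mem_LL ((theta_fix_iff_SU σ hσ2 hq g.1).2 g.2)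
  have hnormal : (M.comap π).Normal := by
    constructor
    intro x hx g
    rw [Subgroup.mem_comap] at hx ⊢
    rw [map_mul, map_mul, map_inv]
    exact hnorm _ (hπL g) _ hx
  rcases Cfsg.Agent.Lib.Helper5.su_normal_le_center_or hF hn h32 (M.comap π) with hc | ht
  · exfalso
    apply hne
    rw [eq_bot_iff]
    intro m hm
    obtain ⟨s, hs, rfl⟩ := hM hm
    have hsSU : s ∈ Cfsg.SU n F q := (theta_fix_iff_SU σ hσ2 hq s).1 hs
    have hmem : (⟨s, hsSU⟩ : Cfsg.SU n F q) ∈ M.comap π := hm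
    obtain ⟨a, ha⟩ := Cfsg.Agent.Lib.Helper5.SU_center_scalar hF _ (hc hmem)
    rw [Subgroup.mem_bot]
    refine (QuotientGroup.eq_one_iff s).2 ?_
    rw [Matrix.SpecialLinearGroup.mem_center_iff]
    refine ⟨a, ?_, ha.symm⟩
    have hdet := s.2
    have ha' : s.1 = Matrix.scalar (Fin n) a := ha
    rw [ha'] at hdet
    simpa using hdet
  · have hm1 : (-1 : F) ≠ 0 := neg_ne_zero.2 one_ne_zero
    have hinv : ((-1 : F))⁻¹ = -1 := by
      rw [inv_neg, inv_one]
    let t : SpecialLinearGroup (Fin n) F := ⟨Matrix.diagonal (dg hn (-1)), by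
      rw [Matrix.det_diagonal, prod_dg hn _ hm1]⟩
    have ht1 : t.1 = Matrix.diagonal (dg hn (-1)) := rfl
    have hfix : (fieldSL σ * invT : MulAut (SpecialLinearGroup (Fin n) F)) t = t := by
      rw [theta_fix_iff σ hσ2, ht1, Matrix.diagonal_map (map_zero σ), Matrix.diagonal_transpose,
        Matrix.diagonal_mul_diagonal, ← Matrix.diagonal_one]
      congr 1
      funext i
      exact dg_mul hn σ _ hm1 (by rw [map_neg, map_one, hinv]) i
    have htSU : t ∈ Cfsg.SU n F q := (theta_fix_iff_SU σ hσ2 hq t).1 hfix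
    have htM : (QuotientGroup.mk t : ProjectiveSpecialLinearGroup (Fin n) F) ∈ M := by
      have : (⟨t, htSU⟩ : Cfsg.SU n F q) ∈ M.comap π := by rw [ht]; trivial
      exact this
    have htt : t * t = 1 := by
      apply Subtype.ext
      show t.1 * t.1 = 1
      rw [ht1, Matrix.diagonal_mul_diagonal, ← Matrix.diagonal_one]
      congr 1
      funext i
      exact dg_mul hn (RingEquiv.refl F) _ hm1 (by rw [hinv]; rfl) i
    have hne1 : (QuotientGroup.mk t : ProjectiveSpecialLinearGroup (Fin n) F) ≠ 1 := by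
      intro h1
      have h1' : (QuotientGroup.mk (1 : SpecialLinearGroup (Fin n) F) :
          ProjectiveSpecialLinearGroup (Fin n) F) = QuotientGroup.mk t := h1.symm
      obtain ⟨r, hr⟩ := exists_smul_of_mk_eq h1'
      have h1c : (1 : SpecialLinearGroup (Fin n) F).1 = 1 := rfl
      rw [ht1, h1c] at hr
      have e2 := congrFun (congrFun hr (⟨2, by omega⟩ : Fin n)) (⟨2, by omega⟩ : Fin n)
      have e0 := congrFun (congrFun hr (⟨0, by omega⟩ : Fin n)) (⟨0, by omega⟩ : Fin n)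
      simp only [Matrix.diagonal_apply_eq, Matrix.smul_apply, dg_two, dg_zero,
        Matrix.one_apply_eq, smul_eq_mul, mul_one] at e2 e0
      apply h2
      rw [← e2] at e0
      linear_combination -e0
    have ho : orderOf (⟨QuotientGroup.mk t, htM⟩ : M) = 2 := by
      apply orderOf_eq_prime
      · apply Subtype.ext
        show (QuotientGroup.mk t : ProjectiveSpecialLinearGroup (Fin n) F) ^ 2 = 1
        rw [sq, ← QuotientGroup.mk_mul, htt]
        rfl
      · intro h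
        exact hne1 (congrArg Subtype.val h)
    rw [← ho]
    exact orderOf_dvd_natCard _

end Cfsg.Agent.Lib.Helper62.LBP
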