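import Mathlib
import Cfsg.Agent.S3377
import Cfsg.Agent.Lib.Helper11.DicksonGen
import Cfsg.Agent.Lib.Helper5.LinearCard

/-!
# `SL(2,5)` by generators and relations; uniqueness of the perfect central extension `2.A₅`
-/

set_option autoImplicit false

namespace Cfsg.Agent.Lib.Helper62

/-- A group generated by `x, y` with `x³ = y⁵ = 1` and `(xy)² = z` central with `z² = 1`
has at most 120 elements. -/
theorem card_le_120 {G : Type*} [Group G] (x y z : G) (hx : x ^ 3 = 1) (hy : y ^ 5 = 1)
    (hz : z ^ 2 = 1) (hzx : Commute z x) (hzy : Commute z y) (hxy : (x * y) ^ 2 = z)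
    (hgen : Subgroup.closure {x, y} = ⊤) : Finite G ∧ Nat.card G ≤ 120 := by
  have hzc : ∀ g : G, g * z = z * g := by
    intro g
    have hg : g ∈ Subgroup.closure {x, y} := by rw [hgen]; trivial
    have hle : Subgroup.closure {x, y} ≤ Subgroup.centralizer {z} := by
      rw [Subgroup.closure_le]
      rintro a (rfl | rfl)
      · intro b hb
        rw [Set.mem_singleton_iff] at hb
        subst hb
        exact hzx
      · intro b hb
        rw [Set.mem_singleton_iff] at hb
        subst hb
        exact hzy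
    exact ((hle hg) z rfl).symm
  have hn : (Subgroup.zpowers z).Normal := by
    constructor
    intro n hn g
    obtain ⟨k, rfl⟩ := Subgroup.mem_zpowers_iff.1 hn
    have : g * z ^ k * g⁻¹ = z ^ k := by
      have hc : Commute g (z ^ k) := Commute.zpow_right (hzc g) k
      rw [hc.eq, mul_assoc, mul_inv_cancel, mul_one]
    rw [this]
    exact Subgroup.zpow_mem_zpowers z k
  obtain ⟨hfin, hcard⟩ := Cfsg.Agent.S3377.card_le_60
    (QuotientGroup.mk' (Subgroup.zpowers z) x) (QuotientGroup.mk' (Subgroup.zpowers z) y)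
    (by rw [← map_pow, hx, map_one]) (by rw [← map_pow, hy, map_one])
    (by
      rw [← map_mul, ← map_pow, hxy]
      exact (QuotientGroup.eq_one_iff z).2 (Subgroup.mem_zpowers z))
    (by
      have h := congrArg (Subgroup.map (QuotientGroup.mk' (Subgroup.zpowers z))) hgen
      rw [MonoidHom.map_closure, Subgroup.map_top_of_surjective _ (QuotientGroup.mk'_surjective _),
        Set.image_pair] at h
      exact h)
  have hzfin : IsOfFinOrder z := isOfFinOrder_iff_pow_eq_one.2 ⟨2, by norm_num, hz⟩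
  have hfz : Finite (Subgroup.zpowers z) := hzfin.finite_zpowers.to_subtype
  have hcz : Nat.card (Subgroup.zpowers z) ≤ 2 := by
    rw [Nat.card_zpowers]
    exact orderOf_le_of_pow_eq_one (by norm_num) hz
  refine ⟨Finite.of_equiv _ (Subgroup.groupEquivQuotientProdSubgroup (s := Subgroup.zpowers z)).symm, ?_⟩
  rw [Subgroup.card_eq_card_quotient_mul_card_subgroup (Subgroup.zpowers z)]
  calc _ ≤ 60 * 2 := Nat.mul_le_mul hcard hcz
    _ = 120 := by norm_num

/-- The relators of the presentation of `SL(2,5)`. -/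
def rels120 : Set (FreeGroup (Fin 3)) :=
  {FreeGroup.of (0 : Fin 3) ^ 3, FreeGroup.of (1 : Fin 3) ^ 5, FreeGroup.of (2 : Fin 3) ^ 2,
        (FreeGroup.of (2 : Fin 3))⁻¹ * FreeGroup.of 0 * FreeGroup.of 2 * (FreeGroup.of (0 : Fin 3))⁻¹,
        (FreeGroup.of (2 : Fin 3))⁻¹ * FreeGroup.of 1 * FreeGroup.of 2 * (FreeGroup.of (1 : Fin 3))⁻¹,
        (FreeGroup.of (0 : Fin 3) * FreeGroup.of 1) ^ 2 * (FreeGroup.of (2 : Fin 3))⁻¹}

theorem card_presented_le_120 :
    Finite (PresentedGroup rels120) ∧ Nat.card (PresentedGroup rels120) ≤ 120 := by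
  have hx : (PresentedGroup.of 0 : PresentedGroup rels120) ^ 3 = 1 :=
    PresentedGroup.one_of_mem (rels := rels120) (x := FreeGroup.of (0 : Fin 3) ^ 3) (by simp [rels120])
  have hy : (PresentedGroup.of 1 : PresentedGroup rels120) ^ 5 = 1 :=
    PresentedGroup.one_of_mem (rels := rels120) (x := FreeGroup.of (1 : Fin 3) ^ 5) (by simp [rels120])
  have hz : (PresentedGroup.of 2 : PresentedGroup rels120) ^ 2 = 1 :=
    PresentedGroup.one_of_mem (rels := rels120) (x := FreeGroup.of (2 : Fin 3) ^ 2) (by simp [rels120])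
  have hzx : (PresentedGroup.of 2 : PresentedGroup rels120)⁻¹ * PresentedGroup.of 0 *
      PresentedGroup.of 2 * (PresentedGroup.of 0)⁻¹ = 1 :=
    PresentedGroup.one_of_mem (rels := rels120)
      (x := (FreeGroup.of (2 : Fin 3))⁻¹ * FreeGroup.of 0 * FreeGroup.of 2 * (FreeGroup.of (0 : Fin 3))⁻¹)
      (by simp [rels120])
  have hzy : (PresentedGroup.of 2 : PresentedGroup rels120)⁻¹ * PresentedGroup.of 1 *
      PresentedGroup.of 2 * (PresentedGroup.of 1)⁻¹ = 1 :=
    PresentedGroup.one_of_mem (rels := rels120)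
      (x := (FreeGroup.of (2 : Fin 3))⁻¹ * FreeGroup.of 1 * FreeGroup.of 2 * (FreeGroup.of (1 : Fin 3))⁻¹)
      (by simp [rels120])
  have hxy : ((PresentedGroup.of 0 : PresentedGroup rels120) * PresentedGroup.of 1) ^ 2 *
      (PresentedGroup.of 2)⁻¹ = 1 :=
    PresentedGroup.one_of_mem (rels := rels120)
      (x := (FreeGroup.of (0 : Fin 3) * FreeGroup.of 1) ^ 2 * (FreeGroup.of (2 : Fin 3))⁻¹)
      (by simp [rels120])
  have hxy' : ((PresentedGroup.of 0 : PresentedGroup rels120) * PresentedGroup.of 1) ^ 2 =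
      PresentedGroup.of 2 := mul_inv_eq_one.1 hxy
  have hgen : Subgroup.closure {(PresentedGroup.of 0 : PresentedGroup rels120), PresentedGroup.of 1} = ⊤ := by
    rw [eq_top_iff, ← PresentedGroup.closure_range_of rels120, Subgroup.closure_le]
    rintro _ ⟨i, rfl⟩
    have h0 : (PresentedGroup.of 0 : PresentedGroup rels120) ∈
        Subgroup.closure {(PresentedGroup.of 0 : PresentedGroup rels120), PresentedGroup.of 1} :=
      Subgroup.subset_closure (by simp)
    have h1 : (PresentedGroup.of 1 : PresentedGroup rels120) ∈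
        Subgroup.closure {(PresentedGroup.of 0 : PresentedGroup rels120), PresentedGroup.of 1} :=
      Subgroup.subset_closure (by simp)
    fin_cases i
    · exact h0
    · exact h1
    · change (PresentedGroup.of 2 : PresentedGroup rels120) ∈ _
      rw [← hxy']
      exact Subgroup.pow_mem _ (Subgroup.mul_mem _ h0 h1) 2
  refine card_le_120 _ _ _ hx hy hz ?_ ?_ hxy' hgen
  · have := mul_inv_eq_one.1 hzx
    change _ * _ = _ * _
    calc _ = (PresentedGroup.of 2 : PresentedGroup rels120) *
          ((PresentedGroup.of 2)⁻¹ * PresentedGroup.of 0 * PresentedGroup.of 2) := by rw [this]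
      _ = _ := by group
  · have := mul_inv_eq_one.1 hzy
    change _ * _ = _ * _
    calc _ = (PresentedGroup.of 2 : PresentedGroup rels120) *
          ((PresentedGroup.of 2)⁻¹ * PresentedGroup.of 1 * PresentedGroup.of 2) := by rw [this]
      _ = _ := by group

/-- Any group of order 120 generated by `x, y` with `x³ = y⁵ = 1` and `(xy)² = z` central with
`z² = 1` is isomorphic to the presented group. -/
theorem nonempty_presented_equiv {G : Type*} [Group G] (x y z : G) (hx : x ^ 3 = 1) (hy : y ^ 5 = 1)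
    (hz : z ^ 2 = 1) (hzx : Commute z x) (hzy : Commute z y) (hxy : (x * y) ^ 2 = z)
    (hgen : Subgroup.closure {x, y} = ⊤) (hcard : Nat.card G = 120) :
    Nonempty (PresentedGroup rels120 ≃* G) := by
  have hlift : ∀ r ∈ rels120, FreeGroup.lift ![x, y, z] r = 1 := by
    rintro r (rfl | rfl | rfl | rfl | rfl | rfl)
    · simpa using hx
    · simpa using hy
    · simpa using hz
    · simp only [map_mul, map_inv, FreeGroup.lift_apply_of]
      change z⁻¹ * x * z * x⁻¹ = 1
      rw [mul_assoc z⁻¹, ← hzx.eq]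
      group
    · simp only [map_mul, map_inv, FreeGroup.lift_apply_of]
      change z⁻¹ * y * z * y⁻¹ = 1
      rw [mul_assoc z⁻¹, ← hzy.eq]
      group
    · simp only [map_mul, map_inv, map_pow, FreeGroup.lift_apply_of]
      change (x * y) ^ 2 * z⁻¹ = 1
      rw [hxy, mul_inv_cancel]
  let φ : PresentedGroup rels120 →* G := PresentedGroup.toGroup hlift
  have hφ0 : φ (PresentedGroup.of 0) = x := PresentedGroup.toGroup.of hlift
  have hφ1 : φ (PresentedGroup.of 1) = y := PresentedGroup.toGroup.of hlift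
  have hsurj : Function.Surjective φ := by
    rw [← MonoidHom.range_eq_top, eq_top_iff, ← hgen, Subgroup.closure_le]
    rintro a (rfl | rfl)
    · exact ⟨_, hφ0⟩
    · exact ⟨_, hφ1⟩
  obtain ⟨hfin, hc⟩ := card_presented_le_120
  have h1 := Nat.card_le_card_of_surjective φ hsurj
  have h2 : Nat.card (PresentedGroup rels120) = Nat.card G := by omega
  exact ⟨MulEquiv.ofBijective φ ((Nat.bijective_iff_surjective_and_card φ).2 ⟨hsurj, h2⟩)⟩

theorem fact_prime_five : Fact (Nat.Prime 5) := ⟨by norm_num⟩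

/-- generator of order 3 -/
def sl25x : Matrix.SpecialLinearGroup (Fin 2) (ZMod 5) := ⟨!![0, -1; 1, -1], by decide⟩
/-- generator of order 5 -/
def sl25y : Matrix.SpecialLinearGroup (Fin 2) (ZMod 5) := ⟨!![1, 1; 0, 1], by decide⟩
/-- the central involution -/
def sl25z : Matrix.SpecialLinearGroup (Fin 2) (ZMod 5) := ⟨!![-1, 0; 0, -1], by decide⟩
/-- a lower unitriangular element -/
def sl25l : Matrix.SpecialLinearGroup (Fin 2) (ZMod 5) := ⟨!![1, 0; -1, 1], by decide⟩

open Cfsg.Agent.Lib.Helper11 in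
/-- `SL(2,5)` is the presented group. -/
theorem nonempty_presented_equiv_SL25 :
    Nonempty (PresentedGroup rels120 ≃* Matrix.SpecialLinearGroup (Fin 2) (ZMod 5)) := by
  have hx : sl25x ^ 3 = 1 := by decide
  have hy : sl25y ^ 5 = 1 := by decide
  have hz : sl25z ^ 2 = 1 := by decide
  have hzx : Commute sl25z sl25x := by
    change sl25z * sl25x = sl25x * sl25z
    decide
  have hzy : Commute sl25z sl25y := by
    change sl25z * sl25y = sl25y * sl25z
    decide
  have hxy : (sl25x * sl25y) ^ 2 = sl25z := by decide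
  have hl : (sl25x * sl25y) * sl25y * (sl25x * sl25y)⁻¹ = sl25l := by decide
  have hne : (-1 : ZMod 5) ≠ 0 := by decide
  have hgen : Subgroup.closure {sl25x, sl25y} = ⊤ := by
    have := fact_prime_five
    have hy' : sl25y = uMat 1 := Subtype.ext rfl
    have hl' : sl25l = lMat (-1) := Subtype.ext rfl
    rw [eq_top_iff, ← Dickson.closure_eq_top 5 (-1 : ZMod 5) hne, Subgroup.closure_le]
    have h0 : sl25x ∈ Subgroup.closure {sl25x, sl25y} := Subgroup.subset_closure (by simp)
    have h1 : sl25y ∈ Subgroup.closure {sl25x, sl25y} := Subgroup.subset_closure (by simp)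
    rintro a (rfl | rfl)
    · rw [← hy']
      exact h1
    · change lMat (-1) ∈ Subgroup.closure {sl25x, sl25y}
      rw [← hl', ← hl]
      exact Subgroup.mul_mem _ (Subgroup.mul_mem _ (Subgroup.mul_mem _ h0 h1) h1)
        (Subgroup.inv_mem _ (Subgroup.mul_mem _ h0 h1))
  have hcard : Nat.card (Matrix.SpecialLinearGroup (Fin 2) (ZMod 5)) = 120 := by
    have := fact_prime_five
    rw [Cfsg.Agent.Lib.Helper5.card_SL2, ZMod.card]
    norm_num
  exact nonempty_presented_equiv _ _ _ hx hy hz hzx hzy hxy hgen hcard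

/-- Any group of order 120 generated by `x, y` with `x³ = y⁵ = 1` and `(xy)² = z` central with
`z² = 1` is isomorphic to `SL(2,5)`. -/
theorem nonempty_equiv_SL25_of_gens {G : Type*} [Group G] (x y z : G) (hx : x ^ 3 = 1) (hy : y ^ 5 = 1)
    (hz : z ^ 2 = 1) (hzx : Commute z x) (hzy : Commute z y) (hxy : (x * y) ^ 2 = z)
    (hgen : Subgroup.closure {x, y} = ⊤) (hcard : Nat.card G = 120) :
    Nonempty (G ≃* Matrix.SpecialLinearGroup (Fin 2) (ZMod 5)) := by
  obtain ⟨e₁⟩ := nonempty_presented_equiv x y z hx hy hz hzx hzy hxy hgen hcard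
  obtain ⟨e₂⟩ := nonempty_presented_equiv_SL25
  exact ⟨e₁.symm.trans e₂⟩

theorem commutator_le_of_index_two {G : Type*} [Group G] (H : Subgroup G) (h : H.index = 2) :
    commutator G ≤ H := by
  have hn : H.Normal := Subgroup.normal_of_index_eq_two h
  have hc : Nat.card (G ⧸ H) = 2 := h
  have := Nat.fact_prime_two
  have hcyc : IsCyclic (G ⧸ H) := isCyclic_of_prime_card hc
  exact Subgroup.Normal.quotient_commutative_iff_commutator_le.1 inferInstance

open Cfsg.Agent.S3377 in
/-- A perfect central extension of `A₅` by a group of order 2 is `SL(2,5)`. -/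
theorem sl25_of_central_ext {G : Type*} [Group G] [Finite G] (hperf : commutator G = ⊤)
    (f : G →* alternatingGroup (Fin 5)) (hf : Function.Surjective f) (hk : Nat.card f.ker = 2) :
    Nonempty (G ≃* Matrix.SpecialLinearGroup (Fin 2) (ZMod 5)) := by
  have hA : Nat.card (alternatingGroup (Fin 5)) = 60 := by
    rw [nat_card_alternatingGroup]; simp; decide
  have hcard : Nat.card G = 120 := by
    have h1 := Subgroup.card_eq_card_quotient_mul_card_subgroup f.ker
    have h2 : Nat.card (G ⧸ f.ker) = 60 := by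
      rw [Nat.card_congr (QuotientGroup.quotientKerEquivOfSurjective f hf).toEquiv, hA]
    rw [h1, h2, hk]
  obtain ⟨⟨z, hzk⟩, hz1, hzu⟩ := (Nat.card_eq_two_iff' (1 : f.ker)).1 hk
  have hz1' : z ≠ 1 := fun h => hz1 (Subtype.ext h)
  have hker : ∀ g ∈ f.ker, g = 1 ∨ g = z := by
    intro g hg
    by_cases h : g = 1
    · exact Or.inl h
    · right
      have := hzu ⟨g, hg⟩ (fun h' => h (congrArg Subtype.val h'))
      exact congrArg Subtype.val this
  have hz2 : z ^ 2 = 1 := by
    have := pow_card_eq_one' (x := (⟨z, hzk⟩ : f.ker))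
    rw [hk] at this
    exact congrArg Subtype.val this
  have hk2 : ∀ g ∈ f.ker, g ^ 2 = 1 := by
    intro g hg
    rcases hker g hg with rfl | rfl
    · simp
    · exact hz2
  have hzc : ∀ g : G, Commute z g := by
    intro g
    have h1 : g * z * g⁻¹ ∈ f.ker := (inferInstance : f.ker.Normal).conj_mem z hzk g
    rcases hker _ h1 with h | h
    · exfalso
      apply hz1'
      have : z = g⁻¹ * (g * z * g⁻¹) * g := by group
      rw [this, h]
      group
    · change z * g = g * z
      calc z * g = (g * z * g⁻¹) * g := by rw [h]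
        _ = g * z := by group
  obtain ⟨x0, hx0⟩ := hf pa
  obtain ⟨y0, hy0⟩ := hf pb
  have fx : f (x0 ^ 4) = pa := by
    rw [map_pow, hx0, pow_succ, pa_pow, one_mul]
  have fy : f (y0 ^ 6) = pb := by
    rw [map_pow, hy0, pow_succ, pb_pow, one_mul]
  have hx : (x0 ^ 4) ^ 3 = 1 := by
    have h1 : x0 ^ 3 ∈ f.ker := by rw [MonoidHom.mem_ker, map_pow, hx0, pa_pow]
    have h2 := hk2 _ h1
    calc (x0 ^ 4) ^ 3 = ((x0 ^ 3) ^ 2) ^ 2 := by simp only [← pow_mul]
      _ = 1 := by rw [h2, one_pow]
  have hy : (y0 ^ 6) ^ 5 = 1 := by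
    have h1 : y0 ^ 5 ∈ f.ker := by rw [MonoidHom.mem_ker, map_pow, hy0, pb_pow]
    have h2 := hk2 _ h1
    calc (y0 ^ 6) ^ 5 = ((y0 ^ 5) ^ 2) ^ 3 := by simp only [← pow_mul]
      _ = 1 := by rw [h2, one_pow]
  obtain ⟨x, hxdef⟩ : ∃ x, x = x0 ^ 4 := ⟨_, rfl⟩
  obtain ⟨y, hydef⟩ : ∃ y, y = y0 ^ 6 := ⟨_, rfl⟩
  rw [← hxdef] at fx hx
  rw [← hydef] at fy hy
  have hxyk : (x * y) ^ 2 ∈ f.ker := by
    rw [MonoidHom.mem_ker, map_pow, map_mul, fx, fy, pab_pow]
  have hmap : (Subgroup.closure {x, y}).map f = ⊤ := by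
    rw [MonoidHom.map_closure, Set.image_pair, fx, fy]
    have h0 : pa ∈ Subgroup.closure {pa, pb} := Subgroup.subset_closure (by simp)
    have h1 : pb ∈ Subgroup.closure {pa, pb} := Subgroup.subset_closure (by simp)
    have : Fact (Nat.Prime 5) := ⟨by norm_num⟩
    exact eq_top_of_orders _ pa pb (pa * pb) h0 h1 (Subgroup.mul_mem _ h0 h1)
      (orderOf_eq_prime pa_pow (by decide)) (orderOf_eq_prime pb_pow (by decide))
      (orderOf_eq_prime pab_pow (by decide))
  have hx0' : x ∈ Subgroup.closure {x, y} := Subgroup.subset_closure (by simp)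
  have hy0' : y ∈ Subgroup.closure {x, y} := Subgroup.subset_closure (by simp)
  rcases hker _ hxyk with h | h
  · exfalso
    obtain ⟨H, hH⟩ : ∃ H, H = Subgroup.closure {x, y} := ⟨_, rfl⟩
    rw [← hH] at hmap hx0' hy0'
    have hgen : Subgroup.closure {(⟨x, hx0'⟩ : H), ⟨y, hy0'⟩} = ⊤ := by
      have h1 : (Subgroup.closure {(⟨x, hx0'⟩ : H), ⟨y, hy0'⟩}).map H.subtype = H := by
        rw [MonoidHom.map_closure, Set.image_pair]
        exact hH.symm
      apply Subgroup.map_injective H.subtype_injective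
      rw [h1, ← MonoidHom.range_eq_map, Subgroup.range_subtype]
    obtain ⟨-, hc60⟩ := card_le_60 (⟨x, hx0'⟩ : H) ⟨y, hy0'⟩ (Subtype.ext hx) (Subtype.ext hy)
      (Subtype.ext h) hgen
    have hge : 60 ≤ Nat.card H := by
      rw [← hA]
      have hs : Function.Surjective (f.comp H.subtype) := by
        intro a
        have : a ∈ H.map f := by rw [hmap]; trivial
        obtain ⟨b, hb, rfl⟩ := this
        exact ⟨⟨b, hb⟩, rfl⟩
      exact Nat.card_le_card_of_surjective _ hs
    have hidx : H.index = 2 := by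
      have := H.card_mul_index
      rw [hcard] at this
      have h60 : Nat.card H = 60 := le_antisymm hc60 hge
      rw [h60] at this
      omega
    have hle := commutator_le_of_index_two H hidx
    rw [hperf, top_le_iff] at hle
    rw [hle, Subgroup.index_top] at hidx
    omega
  · refine nonempty_equiv_SL25_of_gens x y z hx hy hz2 (hzc x) (hzc y) h ?_ hcard
    rw [eq_top_iff]
    intro g _
    have hg : f g ∈ (Subgroup.closure {x, y}).map f := by rw [hmap]; trivial
    obtain ⟨b, hb, hbg⟩ := hg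
    have hzm : z ∈ Subgroup.closure {x, y} := by
      rw [← h]
      exact Subgroup.pow_mem _ (Subgroup.mul_mem _ hx0' hy0') 2
    have h1 : b⁻¹ * g ∈ f.ker := by
      rw [MonoidHom.mem_ker, map_mul, map_inv, hbg, inv_mul_cancel]
    have h2 : b⁻¹ * g ∈ Subgroup.closure {x, y} := by
      rcases hker _ h1 with h' | h'
      · rw [h']; exact Subgroup.one_mem _
      · rw [h']; exact hzm
    have : g = b * (b⁻¹ * g) := by group
    rw [this]
    exact Subgroup.mul_mem _ hb h2

end Cfsg.Agent.Lib.Helper62
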