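import Cfsg.Agent.Lib.Helper62.SU3Invol
import Cfsg.Agent.Lib.Helper5.SUTorus

set_option autoImplicit false
open scoped MatrixGroups

namespace Cfsg.Agent.Lib.Helper62

open Matrix Cfsg.Agent.Lib.Helper13 Cfsg.Agent.Lib.Helper5

variable {F : Type*} [Field F] [Fintype F] {q : ℕ}

local notation "H3" => Cfsg.hermForm 3 F q

omit [Fintype F] in
theorem hermForm_sub_left' (a b c : Fin 3 → F) : H3 (a - b) c = H3 a c - H3 b c := by
  simp [Cfsg.hermForm, sub_mul, Finset.sum_sub_distrib]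

/-- the involution `x ↦ 2 h(x,u) u - x` -/
def tauM (q : ℕ) (u : Fin 3 → F) : Matrix (Fin 3) (Fin 3) F := - dil 3 q ((-2 : F) • u) u

omit [Fintype F] in
theorem tauM_mulVec (u x : Fin 3 → F) : tauM q u *ᵥ x = (2 * H3 x u) • u - x := by
  rw [tauM, neg_mulVec, dil_mulVec]
  module

omit [Fintype F] in
theorem tauM_det {u : Fin 3 → F} (hu : H3 u u = 1) : (tauM q u).det = 1 := by
  rw [tauM, Matrix.det_neg, dil_det, hermForm_smul_left, hu, Fintype.card_fin]
  ring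

theorem two_pow_q (hF : Fintype.card F = q ^ 2) : (2 : F) ^ q = 2 := by
  rw [← one_add_one_eq_two, add_pow_q hF, one_pow]

theorem tauM_preserves (hF : Fintype.card F = q ^ 2) {u : Fin 3 → F} (hu : H3 u u = 1)
    (x y : Fin 3 → F) : H3 (tauM q u *ᵥ x) (tauM q u *ᵥ y) = H3 x y := by
  rw [tauM_mulVec, tauM_mulVec, sub_eq_add_neg, sub_eq_add_neg, ← neg_one_smul F x,
    ← neg_one_smul F y]
  simp only [hermForm_add_left, hermForm_add_right hF, hermForm_smul_left, hermForm_smul_right,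
    mul_pow, two_pow_q hF, neg_pow_q hF, one_pow, hermForm_swap hF, hu]
  ring

omit [Fintype F] in
theorem tauM_sq {u : Fin 3 → F} (hu : H3 u u = 1) : tauM q u * tauM q u = 1 := by
  apply Matrix.mulVec_injective
  funext x
  rw [← Matrix.mulVec_mulVec, tauM_mulVec, tauM_mulVec, Matrix.one_mulVec]
  simp only [hermForm_sub_left', hermForm_smul_left, hu]
  module

omit [Fintype F] in
theorem tauM_eq_of_smul {u : Fin 3 → F} {l : F} (hl : l ^ (q + 1) = 1) :
    tauM q (l • u) = tauM q u := by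
  apply Matrix.mulVec_injective
  funext x
  rw [tauM_mulVec, tauM_mulVec, hermForm_smul_right, smul_smul]
  have : 2 * (l ^ q * H3 x u) * l = 2 * H3 x u := by
    rw [pow_succ] at hl
    linear_combination (2 * H3 x u) * hl
  rw [this]

omit [Fintype F] in
theorem tauM_eq_imp (h2 : (2 : F) ≠ 0) {u v : Fin 3 → F} (h : tauM q u = tauM q v)
    (x : Fin 3 → F) : H3 x u • u = H3 x v • v := by
  have h1 := congrArg (fun M => M *ᵥ x) h
  simp only [tauM_mulVec] at h1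
  have h3 : (2 : F) • (H3 x u • u) = (2 : F) • (H3 x v • v) := by
    rw [smul_smul, smul_smul]
    exact sub_left_injective h1
  exact smul_right_injective _ h2 h3

omit [Fintype F] in
theorem tauM_eq_iff (h2 : (2 : F) ≠ 0) {u v : Fin 3 → F} (hu : H3 u u = 1)
    (hv : H3 v v = 1) : tauM q u = tauM q v ↔ ∃ l : F, l ^ (q + 1) = 1 ∧ v = l • u := by
  constructor
  · intro h
    have h1 := tauM_eq_imp h2 h v
    rw [hv, one_smul] at h1
    obtain ⟨l, hl⟩ : ∃ l : F, v = l • u := ⟨_, h1.symm⟩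
    refine ⟨l, ?_, hl⟩
    have h3 := hv
    rw [hl, hermForm_smul_left, hermForm_smul_right, hu, mul_one] at h3
    rw [pow_succ']; exact h3
  · rintro ⟨l, hl, rfl⟩
    exact (tauM_eq_of_smul hl).symm

theorem tauM_comm_iff (hF : Fintype.card F = q ^ 2) (h2 : (2 : F) ≠ 0) {u v : Fin 3 → F}
    (hu : H3 u u = 1) (hv : H3 v v = 1) :
    tauM q u * tauM q v = tauM q v * tauM q u ↔ H3 u v = 0 ∨ tauM q u = tauM q v := by
  have hexp : ∀ (a b x : Fin 3 → F), (tauM q a * tauM q b) *ᵥ x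
      = (4 * H3 x b * H3 b a) • a - (2 * H3 x a) • a - (2 * H3 x b) • b + x := by
    intro a b x
    rw [← Matrix.mulVec_mulVec, tauM_mulVec, tauM_mulVec]
    simp only [hermForm_sub_left', hermForm_smul_left]
    module
  constructor
  · intro h
    by_cases h0 : H3 u v = 0
    · exact Or.inl h0
    right
    have h0' : H3 v u ≠ 0 := by
      intro h'; apply h0; rw [← hermForm_swap hF, h', zero_pow]
      have := two_le_of_card_sq hF; omega
    have h1 := congrArg (fun M => M *ᵥ v) h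
    simp only [hexp, hv] at h1
    have h3 : (4 * H3 v u) • u = (4 * H3 v u) • (H3 u v • v) := by
      have : (4 * 1 * H3 v u) • u = (4 * H3 v u * H3 u v) • v := by
        have h4 := h1
        have e1 : (4 * 1 * H3 v u) • u - (2 * H3 v u) • u - (2 * (1 : F)) • v + v
          - (-(2 * H3 v u) • u - (2 * (1 : F)) • v + v) = (4 * 1 * H3 v u) • u := by module
        have e2 : (4 * H3 v u * H3 u v) • v - (2 * (1 : F)) • v - (2 * H3 v u) • u + v
          - (-(2 * H3 v u) • u - (2 * (1 : F)) • v + v) = (4 * H3 v u * H3 u v) • v := by module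
        rw [← e1, ← e2, h4]
      rw [smul_smul, ← this]; congr 1; ring
    have h4 : (4 * H3 v u) ≠ 0 := by
      refine mul_ne_zero ?_ h0'
      have : (4 : F) = 2 * 2 := by norm_num
      rw [this]; exact mul_ne_zero h2 h2
    have h5 : u = H3 u v • v := smul_right_injective _ h4 h3
    obtain ⟨l, hl⟩ : ∃ l : F, u = l • v := ⟨_, h5⟩
    have h6 : l ^ (q + 1) = 1 := by
      have h7 := hu
      rw [hl, hermForm_smul_left, hermForm_smul_right, hv, mul_one] at h7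
      rw [pow_succ']; exact h7
    rw [hl]
    exact tauM_eq_of_smul h6
  · rintro (h | h)
    · have h' : H3 v u = 0 := by
        rw [← hermForm_swap hF, h, zero_pow]
        have := two_le_of_card_sq hF; omega
      apply Matrix.mulVec_injective
      funext x
      rw [hexp, hexp, h, h']
      module
    · rw [h]

omit [Fintype F] in
theorem tauM_conj {G : Matrix (Fin 3) (Fin 3) F} (hG : ∀ u v, H3 (G *ᵥ u) (G *ᵥ v) = H3 u v)
    (u : Fin 3 → F) : tauM q (G *ᵥ u) * G = G * tauM q u := by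
  apply Matrix.mulVec_injective
  funext x
  rw [← Matrix.mulVec_mulVec, ← Matrix.mulVec_mulVec, tauM_mulVec, tauM_mulVec, hG,
    Matrix.mulVec_sub, Matrix.mulVec_smul]

theorem tauM_single (hq : q ≠ 0) : tauM q (Pi.single 2 1 : Fin 3 → F) = dInv F := by
  apply Matrix.mulVec_injective
  funext x
  rw [tauM_mulVec, hermForm_single_right hq, sub_eq_iff_eq_add, add_comm, dInv_mulVec_add]

omit [Fintype F] in
theorem tauM_ne_one (hq : q ≠ 0) (h2 : (2 : F) ≠ 0) (u : Fin 3 → F) : tauM q u ≠ 1 := by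
  intro h
  have h1 : ∀ x : Fin 3 → F, H3 x u • u = x := by
    intro x
    have h3 := congrArg (fun M => M *ᵥ x) h
    simp only [tauM_mulVec, Matrix.one_mulVec] at h3
    have h4 : (2 : F) • (H3 x u • u) = (2 : F) • x := by
      rw [smul_smul, two_smul F x]
      exact sub_eq_iff_eq_add.mp h3
    exact smul_right_injective _ h2 h4
  have a0 := h1 (Pi.single 0 1)
  have a1 := h1 (Pi.single 1 1)
  rw [hermForm_single_left] at a0 a1
  have b00 := congrFun a0 0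
  have b01 := congrFun a0 1
  have b11 := congrFun a1 1
  simp at b00 b01 b11
  rcases b01 with h | h
  · rw [h.1] at b00; simp [hq] at b00
  · rw [h] at b11; simp at b11

/-- vectors of norm one -/
abbrev N1 (F : Type*) [Field F] (q : ℕ) := {u : Fin 3 → F // Cfsg.hermForm 3 F q u u = 1}

/-- the involution of `SU₃(q)` attached to a vector of norm one -/
def tauSU (hF : Fintype.card F = q ^ 2) (u : N1 F q) : Cfsg.SU 3 F q :=
  mkSU (tauM q u.1) (tauM_det u.2) (tauM_preserves hF u.2)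

theorem tauSU_sq (hF : Fintype.card F = q ^ 2) (u : N1 F q) : tauSU hF u * tauSU hF u = 1 :=
  SU_ext (tauM_sq u.2)

theorem tauSU_ne_one (hF : Fintype.card F = q ^ 2) (h2 : (2 : F) ≠ 0) (u : N1 F q) :
    tauSU hF u ≠ 1 := by
  intro h
  have hq := two_le_of_card_sq hF
  exact tauM_ne_one (by omega) h2 u.1 (congrArg (fun x : Cfsg.SU 3 F q => x.1.1) h)

/-- the basis vectors, as vectors of norm one -/
def eN (F : Type*) [Field F] (q : ℕ) (i : Fin 3) : N1 F q :=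
  ⟨Pi.single i 1, by rw [hermForm_single_left]; simp⟩

theorem tauSU_eN (hF : Fintype.card F = q ^ 2) : tauSU hF (eN F q 2) = dSU hF := by
  have hq := two_le_of_card_sq hF
  exact SU_ext (tauM_single (by omega))

theorem tauSU_surj (hF : Fintype.card F = q ^ 2) (h2 : (2 : F) ≠ 0) (t : Cfsg.SU 3 F q)
    (ht : t ≠ 1) (ht2 : t * t = 1) : ∃ u : N1 F q, tauSU hF u = t := by
  obtain ⟨g, hg⟩ := su3_invol_conj_dSU hF h2 t ht ht2
  refine ⟨⟨g.1.1 *ᵥ (eN F q 2).1, (g.2 _ _).trans (eN F q 2).2⟩, ?_⟩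
  rw [← hg, eq_mul_inv_iff_mul_eq, ← tauSU_eN]
  exact SU_ext (tauM_conj g.2 _)

theorem tauSU_eq_iff (hF : Fintype.card F = q ^ 2) (h2 : (2 : F) ≠ 0) (u v : N1 F q) :
    tauSU hF u = tauSU hF v ↔ ∃ l : F, l ^ (q + 1) = 1 ∧ v.1 = l • u.1 := by
  rw [← tauM_eq_iff h2 u.2 v.2]
  exact ⟨fun h => congrArg (fun x : Cfsg.SU 3 F q => x.1.1) h, fun h => SU_ext h⟩

theorem tauSU_comm_iff (hF : Fintype.card F = q ^ 2) (h2 : (2 : F) ≠ 0) (u v : N1 F q) :
    Commute (tauSU hF u) (tauSU hF v) ↔ H3 u.1 v.1 = 0 ∨ tauSU hF u = tauSU hF v := by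
  have h1 := tauM_comm_iff hF h2 u.2 v.2
  constructor
  · intro h
    rcases h1.mp (congrArg (fun x : Cfsg.SU 3 F q => x.1.1) h.eq) with h | h
    · exact Or.inl h
    · exact Or.inr (SU_ext h)
  · rintro (h | h)
    · exact SU_ext (h1.mpr (Or.inl h))
    · rw [h]

theorem card_eq_mul_of_fibers {α β : Type*} [Finite α] [Finite β] (f : α → β) (k : ℕ)
    (h : ∀ b, Nat.card {a // f a = b} = k) : Nat.card α = k * Nat.card β := by
  classical
  have := Fintype.ofFinite β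
  rw [Nat.card_congr (Equiv.sigmaFiberEquiv f).symm, Nat.card_sigma]
  simp [h, mul_comm]

theorem card_fiber_tau (hF : Fintype.card F = q ^ 2) (h2 : (2 : F) ≠ 0) (u₀ : N1 F q) :
    Nat.card {u : N1 F q // tauSU hF u = tauSU hF u₀} = q + 1 := by
  rw [← Cfsg.Agent.S0754.result hF 1 one_ne_zero (one_pow q)]
  symm
  have hu0 : u₀.1 ≠ 0 := by
    intro h
    have := u₀.2
    rw [h] at this
    simp [Cfsg.hermForm] at this
  refine Nat.card_congr (Equiv.ofBijective (fun l => ⟨⟨l.1 • u₀.1, ?_⟩, ?_⟩) ⟨?_, ?_⟩)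
  · rw [hermForm_smul_left, hermForm_smul_right, u₀.2, mul_one, ← pow_succ']; exact l.2
  · exact ((tauSU_eq_iff hF h2 _ _).mpr ⟨l.1, l.2, rfl⟩).symm
  · intro l l' h
    have h' : l.1 • u₀.1 = l'.1 • u₀.1 := congrArg (fun x : {u : N1 F q // _} => x.1.1) h
    exact Subtype.ext (smul_left_injective F hu0 h')
  · rintro ⟨u, hu⟩
    obtain ⟨l, hl, hlu⟩ := (tauSU_eq_iff hF h2 _ _).mp hu.symm
    exact ⟨⟨l, hl⟩, Subtype.ext (Subtype.ext hlu.symm)⟩

theorem card_tau_pred (hF : Fintype.card F = q ^ 2) (h2 : (2 : F) ≠ 0)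
    (P : Cfsg.SU 3 F q → Prop) :
    Nat.card {u : N1 F q // P (tauSU hF u)}
      = (q + 1) * Nat.card {x : Cfsg.SU 3 F q // (x ≠ 1 ∧ x * x = 1) ∧ P x} := by
  apply card_eq_mul_of_fibers (fun u => (⟨tauSU hF u.1, ⟨tauSU_ne_one hF h2 _, tauSU_sq hF _⟩, u.2⟩ :
    {x : Cfsg.SU 3 F q // (x ≠ 1 ∧ x * x = 1) ∧ P x}))
  rintro ⟨x, ⟨hx1, hx2⟩, hP⟩
  obtain ⟨u₀, rfl⟩ := tauSU_surj hF h2 x hx1 hx2
  rw [← card_fiber_tau hF h2 u₀]
  refine Nat.card_congr ⟨fun a => ⟨a.1.1, congrArg Subtype.val a.2⟩,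
    fun u => ⟨⟨u.1, by rw [u.2]; exact hP⟩, Subtype.ext u.2⟩, fun a => rfl, fun u => rfl⟩

theorem exists_normalize (hF : Fintype.card F = q ^ 2) (w : Fin 3 → F) (hc : H3 w w ≠ 0) :
    ∃ l : F, l ≠ 0 ∧ H3 (l • w) (l • w) = 1 := by
  obtain ⟨l, hl0, hl⟩ := exists_norm_eq hF (H3 w w) hc (hermForm_swap hF w w)
  refine ⟨l⁻¹, inv_ne_zero hl0, ?_⟩
  rw [hermForm_smul_left, hermForm_smul_right, ← hl, inv_pow]
  field_simp
  ring

/-- if `N(u i) ≠ 1` there is a norm one vector orthogonal to `e_i` and `u` -/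
theorem exists_perp (hF : Fintype.card F = q ^ 2) (u : N1 F q) (i : Fin 3)
    (hi : u.1 i * u.1 i ^ q ≠ 1) : ∃ v : N1 F q, v.1 i = 0 ∧ H3 v.1 u.1 = 0 := by
  have hu := u.2
  simp only [Cfsg.hermForm, Fin.sum_univ_three] at hu
  have key : ∃ w : Fin 3 → F, w i = 0 ∧ H3 w u.1 = 0 ∧ H3 w w = 1 - u.1 i * u.1 i ^ q := by
    fin_cases i
    · refine ⟨![0, -(u.1 2) ^ q, (u.1 1) ^ q], rfl, ?_, ?_⟩
      · simp [Cfsg.hermForm, Fin.sum_univ_three]; ring
      · simp [Cfsg.hermForm, Fin.sum_univ_three, neg_pow_q hF, pow_q_pow_q hF]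
        linear_combination hu
    · refine ⟨![-(u.1 2) ^ q, 0, (u.1 0) ^ q], rfl, ?_, ?_⟩
      · simp [Cfsg.hermForm, Fin.sum_univ_three]; ring
      · simp [Cfsg.hermForm, Fin.sum_univ_three, neg_pow_q hF, pow_q_pow_q hF]
        linear_combination hu
    · refine ⟨![-(u.1 1) ^ q, (u.1 0) ^ q, 0], rfl, ?_, ?_⟩
      · simp [Cfsg.hermForm, Fin.sum_univ_three]; ring
      · simp [Cfsg.hermForm, Fin.sum_univ_three, neg_pow_q hF, pow_q_pow_q hF]
        linear_combination hu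
  obtain ⟨w, hw1, hw2, hw3⟩ := key
  obtain ⟨l, -, hl⟩ := exists_normalize hF w (by rw [hw3]; exact sub_ne_zero.mpr (Ne.symm hi))
  exact ⟨⟨l • w, hl⟩, by simp [hw1], by rw [hermForm_smul_left, hw2, mul_zero]⟩

theorem comm_eN_iff (hF : Fintype.card F = q ^ 2) (h2 : (2 : F) ≠ 0) (i : Fin 3) (u : N1 F q) :
    Commute (tauSU hF (eN F q i)) (tauSU hF u) ↔ u.1 i = 0 ∨ tauSU hF (eN F q i) = tauSU hF u := by
  have hq := two_le_of_card_sq hF
  rw [tauSU_comm_iff hF h2]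
  change H3 (Pi.single i 1) u.1 = 0 ∨ _ ↔ _
  rw [hermForm_single_left, pow_eq_zero_iff (by omega)]

theorem tau_eN_eq_iff (hF : Fintype.card F = q ^ 2) (h2 : (2 : F) ≠ 0) (u : N1 F q) :
    tauSU hF (eN F q 2) = tauSU hF u ↔ u.1 0 = 0 ∧ u.1 1 = 0 := by
  rw [tauSU_eq_iff hF h2]
  constructor
  · rintro ⟨l, -, h⟩
    rw [h]
    simp [eN]
  · rintro ⟨h0, h1⟩
    have hu := u.2
    simp only [Cfsg.hermForm, Fin.sum_univ_three, h0, h1] at hu
    refine ⟨u.1 2, ?_, ?_⟩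
    · rw [pow_succ']; simpa using hu
    · funext i
      fin_cases i <;> simp [eN, h0, h1]

/-- distance one from `t₀` -/
theorem dist_one_iff (hF : Fintype.card F = q ^ 2) (h2 : (2 : F) ≠ 0) (u : N1 F q) :
    (tauSU hF u ≠ dSU hF ∧ Commute (dSU hF) (tauSU hF u)) ↔ u.1 2 = 0 := by
  rw [← tauSU_eN, comm_eN_iff hF h2]
  constructor
  · rintro ⟨h1, h | h⟩
    · exact h
    · exact absurd h.symm h1
  · intro h
    refine ⟨?_, Or.inl h⟩
    intro h'
    have h3 := (tau_eN_eq_iff hF h2 u).mp h'.symm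
    have hu := u.2
    simp [Cfsg.hermForm, Fin.sum_univ_three, h, h3.1, h3.2] at hu

/-- distance three from `t₀` -/
theorem dist_three_iff (hF : Fintype.card F = q ^ 2) (h2 : (2 : F) ≠ 0) (u : N1 F q) :
    (¬ Commute (dSU hF) (tauSU hF u) ∧ ∀ y : Cfsg.SU 3 F q, y ≠ 1 → y * y = 1 →
      ¬ (Commute (dSU hF) y ∧ Commute y (tauSU hF u))) ↔
    (u.1 0 * u.1 0 ^ q + u.1 1 * u.1 1 ^ q = 0 ∧ ¬ (u.1 0 = 0 ∧ u.1 1 = 0)) := by
  have hq := two_le_of_card_sq hF
  have hq0 : q ≠ 0 := by omega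
  have hu := u.2
  simp only [Cfsg.hermForm, Fin.sum_univ_three] at hu
  rw [← tauSU_eN]
  constructor
  · rintro ⟨h1, h3⟩
    have hne : ¬ (u.1 0 = 0 ∧ u.1 1 = 0) := by
      intro h
      apply h1
      rw [(tau_eN_eq_iff hF h2 u).mpr h]
    refine ⟨?_, hne⟩
    by_contra hc
    obtain ⟨v, hv1, hv2⟩ := exists_perp hF u 2 (by
      intro h; apply hc; linear_combination hu - h)
    exact h3 (tauSU hF v) (tauSU_ne_one hF h2 v) (tauSU_sq hF v)
      ⟨(comm_eN_iff hF h2 2 v).mpr (Or.inl hv1), (tauSU_comm_iff hF h2 v u).mpr (Or.inl hv2)⟩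
  · rintro ⟨hN, hne⟩
    have hu2 : u.1 2 ≠ 0 := by
      intro h
      rw [h, hN] at hu
      simp at hu
    have hnc : ¬ Commute (tauSU hF (eN F q 2)) (tauSU hF u) := by
      rw [comm_eN_iff hF h2, tau_eN_eq_iff hF h2]
      rintro (h | h)
      · exact hu2 h
      · exact hne h
    refine ⟨hnc, ?_⟩
    rintro y hy1 hy2 ⟨hc1, hc2⟩
    obtain ⟨v, rfl⟩ := tauSU_surj hF h2 y hy1 hy2
    rw [comm_eN_iff hF h2] at hc1
    rw [tauSU_comm_iff hF h2] at hc2
    rcases hc1 with hc1 | hc1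
    · rcases hc2 with hc2 | hc2
      · have hv := v.2
        simp only [Cfsg.hermForm, Fin.sum_univ_three, hc1] at hv hc2
        have hA : v.1 0 * u.1 0 ^ q = -(v.1 1 * u.1 1 ^ q) := by linear_combination hc2
        have hA2 := congrArg (fun z => z * z ^ q) hA
        simp only [mul_pow, neg_pow_q hF, pow_q_pow_q hF] at hA2
        have h5 : (u.1 0 * u.1 0 ^ q) * (v.1 0 * v.1 0 ^ q + v.1 1 * v.1 1 ^ q) = 0 := by
          linear_combination hA2 + (v.1 1 * v.1 1 ^ q) * hN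
        have h6 : v.1 0 * v.1 0 ^ q + v.1 1 * v.1 1 ^ q = 1 := by linear_combination hv
        rw [h6, mul_one] at h5
        have h0 : u.1 0 = 0 := by
          rcases mul_eq_zero.mp h5 with h | h
          · exact h
          · exact (pow_eq_zero_iff hq0).mp h
        have h7 : u.1 1 * u.1 1 ^ q = 0 := by rw [h5, zero_add] at hN; exact hN
        have h1 : u.1 1 = 0 := by
          rcases mul_eq_zero.mp h7 with h | h
          · exact h
          · exact (pow_eq_zero_iff hq0).mp h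
        exact hne ⟨h0, h1⟩
      · apply hnc
        rw [← hc2]
        exact (comm_eN_iff hF h2 2 v).mpr (Or.inl hc1)
    · apply hnc
      rw [hc1]
      exact (tauSU_comm_iff hF h2 v u).mpr hc2

/-- diameter at most three -/
theorem dist_le_three (hF : Fintype.card F = q ^ 2) (h2 : (2 : F) ≠ 0) (x : Cfsg.SU 3 F q)
    (hx : x ≠ 1) (hx2 : x * x = 1) :
    ∃ y z : Cfsg.SU 3 F q, y ≠ 1 ∧ y * y = 1 ∧ z ≠ 1 ∧ z * z = 1 ∧
      Commute (dSU hF) y ∧ Commute y z ∧ Commute z x := by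
  obtain ⟨u, rfl⟩ := tauSU_surj hF h2 x hx hx2
  have hu := u.2
  simp only [Cfsg.hermForm, Fin.sum_univ_three] at hu
  rw [← tauSU_eN]
  by_cases h22 : u.1 2 * u.1 2 ^ q = 1
  · obtain ⟨i, hi2, hi⟩ : ∃ i : Fin 3, i ≠ 2 ∧ u.1 i * u.1 i ^ q ≠ 1 := by
      by_contra hcon
      push Not at hcon
      have h0 := hcon 0 (by decide)
      have h1 := hcon 1 (by decide)
      apply h2
      linear_combination hu - h0 - h1 - h22
    obtain ⟨v, hv1, hv2⟩ := exists_perp hF u i hi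
    refine ⟨tauSU hF (eN F q i), tauSU hF v, tauSU_ne_one hF h2 _, tauSU_sq hF _,
      tauSU_ne_one hF h2 _, tauSU_sq hF _, ?_, ?_, ?_⟩
    · rw [comm_eN_iff hF h2]
      left
      simp [eN, hi2.symm]
    · exact (comm_eN_iff hF h2 i v).mpr (Or.inl hv1)
    · exact (tauSU_comm_iff hF h2 v u).mpr (Or.inl hv2)
  · obtain ⟨v, hv1, hv2⟩ := exists_perp hF u 2 h22
    exact ⟨tauSU hF v, tauSU hF v, tauSU_ne_one hF h2 _, tauSU_sq hF _,
      tauSU_ne_one hF h2 _, tauSU_sq hF _, (comm_eN_iff hF h2 2 v).mpr (Or.inl hv1),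
      Commute.refl _, (tauSU_comm_iff hF h2 v u).mpr (Or.inl hv2)⟩

local notation "H2" => Cfsg.hermForm 2 F q

theorem card_dist_one_vec (hF : Fintype.card F = q ^ 2) :
    Nat.card {u : N1 F q // u.1 2 = 0} = hcnt F q 2 1 := by
  have hq := two_le_of_card_sq hF
  have hq0 : q ≠ 0 := by omega
  unfold hcnt
  refine Nat.card_congr ⟨fun u => ⟨![u.1.1 0, u.1.1 1], ?_⟩,
    fun v => ⟨⟨![v.1 0, v.1 1, 0], ?_⟩, rfl⟩, ?_, ?_⟩
  · have hu := u.1.2
    simp only [Cfsg.hermForm, Fin.sum_univ_three, u.2] at hu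
    simp only [Cfsg.hermForm, Fin.sum_univ_two]
    simpa [hq0] using hu
  · have hv := v.2
    simp only [Cfsg.hermForm, Fin.sum_univ_two] at hv
    simp only [Cfsg.hermForm, Fin.sum_univ_three]
    simpa [hq0] using hv
  · rintro ⟨⟨u, hu⟩, hu2⟩
    apply Subtype.ext
    apply Subtype.ext
    funext i
    fin_cases i
    · rfl
    · rfl
    · exact hu2.symm
  · rintro ⟨v, hv⟩
    apply Subtype.ext
    funext i
    fin_cases i <;> rfl

theorem card_dist_three_vec (hF : Fintype.card F = q ^ 2) :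
    Nat.card {u : N1 F q // u.1 0 * u.1 0 ^ q + u.1 1 * u.1 1 ^ q = 0 ∧ ¬ (u.1 0 = 0 ∧ u.1 1 = 0)}
      = (hcnt F q 2 0 - 1) * (q + 1) := by
  classical
  have hq := two_le_of_card_sq hF
  have hq0 : q ≠ 0 := by omega
  have h1 : Nat.card {v : Fin 2 → F // H2 v v = 0 ∧ v ≠ 0} = hcnt F q 2 0 - 1 := by
    unfold hcnt
    rw [Nat.card_eq_fintype_card, Nat.card_eq_fintype_card, Fintype.card_subtype,
      Fintype.card_subtype, Finset.filter_and, Finset.filter_ne', ← Finset.erase_eq_of_notMem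
        (s := Finset.univ.filter (fun v : Fin 2 → F => H2 v v = 0) ∩ Finset.univ.erase 0)
        (a := (0 : Fin 2 → F)) (by simp)]
    rw [← Finset.card_erase_of_mem (a := (0 : Fin 2 → F)) (by simp [Cfsg.hermForm, hq0])]
    congr 1
    ext v
    simp only [Finset.mem_erase, Finset.mem_inter, Finset.mem_filter, Finset.mem_univ, true_and]
    tauto
  rw [← h1, ← Cfsg.Agent.S0754.result hF 1 one_ne_zero (one_pow q), ← Nat.card_prod]
  refine Nat.card_congr ⟨fun u => (⟨![u.1.1 0, u.1.1 1], ?_, ?_⟩, ⟨u.1.1 2, ?_⟩),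
    fun v => ⟨⟨![v.1.1 0, v.1.1 1, v.2.1], ?_⟩, ?_, ?_⟩, ?_, ?_⟩
  · simp only [Cfsg.hermForm, Fin.sum_univ_two]
    simpa using u.2.1
  · intro h
    apply u.2.2
    exact ⟨by simpa using congrFun h 0, by simpa using congrFun h 1⟩
  · have hu := u.1.2
    simp only [Cfsg.hermForm, Fin.sum_univ_three, u.2.1, zero_add] at hu
    rw [pow_succ']; exact hu
  · have hv := v.1.2.1
    simp only [Cfsg.hermForm, Fin.sum_univ_two] at hv
    have hc := v.2.2
    rw [pow_succ'] at hc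
    simp only [Cfsg.hermForm, Fin.sum_univ_three]
    simp
    rw [hv, hc, zero_add]
  · have hv := v.1.2.1
    simp only [Cfsg.hermForm, Fin.sum_univ_two] at hv
    simpa using hv
  · intro h
    apply v.1.2.2
    funext i
    fin_cases i
    · simpa using h.1
    · simpa using h.2
  · rintro ⟨⟨u, hu⟩, hu2⟩
    apply Subtype.ext
    apply Subtype.ext
    funext i
    fin_cases i <;> rfl
  · rintro ⟨⟨v, hv⟩, ⟨c, hc⟩⟩
    apply Prod.ext
    · apply Subtype.ext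
      funext i
      fin_cases i <;> rfl
    · rfl

theorem hcnt_two_one (hF : Fintype.card F = q ^ 2) : hcnt F q 2 1 = q * (q - 1) * (q + 1) := by
  have hq := two_le_of_card_sq hF
  have h := hcnt_one_int hF 2
  obtain ⟨k, rfl⟩ : ∃ k, q = k + 1 := ⟨q - 1, by omega⟩
  have hk : ((k + 1 : ℕ) : ℤ) ≠ 0 := by positivity
  have : ((hcnt F (k + 1) 2 1 : ℕ) : ℤ) = (((k + 1) * (k + 1 - 1) * (k + 1 + 1) : ℕ) : ℤ) := by
    apply mul_left_cancel₀ hk
    rw [h]
    simp only [Nat.add_sub_cancel]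
    push_cast
    ring
  exact_mod_cast this

theorem hcnt_two_zero (hF : Fintype.card F = q ^ 2) :
    hcnt F q 2 0 - 1 = (q + 1) * (q ^ 2 - 1) := by
  have hq := two_le_of_card_sq hF
  have h := hcnt_zero_int hF 2
  obtain ⟨k, rfl⟩ : ∃ k, q = k + 1 := ⟨q - 1, by omega⟩
  have hk : ((k + 1 : ℕ) : ℤ) ≠ 0 := by positivity
  have e : (k + 1) ^ 2 - 1 = k * (k + 2) := by
    have : (k + 1) ^ 2 = k * (k + 2) + 1 := by ring
    omega
  have : ((hcnt F (k + 1) 2 0 : ℕ) : ℤ) = (((k + 1 + 1) * (k * (k + 2)) + 1 : ℕ) : ℤ) := by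
    apply mul_left_cancel₀ hk
    rw [h]
    push_cast
    ring
  have h' : hcnt F (k + 1) 2 0 = (k + 1 + 1) * (k * (k + 2)) + 1 := by exact_mod_cast this
  rw [h', e]
  simp

theorem card_dist_one (hF : Fintype.card F = q ^ 2) (h2 : (2 : F) ≠ 0) :
    Nat.card {x : Cfsg.SU 3 F q // x ≠ 1 ∧ x * x = 1 ∧ x ≠ dSU hF ∧ Commute (dSU hF) x}
      = q * (q - 1) := by
  have h1 := card_tau_pred hF h2 (fun x => x ≠ dSU hF ∧ Commute (dSU hF) x)
  rw [Nat.card_congr (Equiv.subtypeEquivRight (fun u => dist_one_iff hF h2 u)),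
    card_dist_one_vec hF, hcnt_two_one hF] at h1
  rw [Nat.card_congr (Equiv.subtypeEquivRight (fun x => by
    rw [and_assoc] : ∀ x : Cfsg.SU 3 F q, (x ≠ 1 ∧ x * x = 1 ∧ x ≠ dSU hF ∧ Commute (dSU hF) x) ↔
      ((x ≠ 1 ∧ x * x = 1) ∧ x ≠ dSU hF ∧ Commute (dSU hF) x)))]
  apply Nat.eq_of_mul_eq_mul_left (show 0 < q + 1 by omega)
  rw [← h1]; ring

theorem card_dist_three (hF : Fintype.card F = q ^ 2) (h2 : (2 : F) ≠ 0) :
    Nat.card {x : Cfsg.SU 3 F q // x ≠ 1 ∧ x * x = 1 ∧ ¬ Commute (dSU hF) x ∧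
      ∀ y : Cfsg.SU 3 F q, y ≠ 1 → y * y = 1 → ¬ (Commute (dSU hF) y ∧ Commute y x)}
      = (q + 1) * (q ^ 2 - 1) := by
  have h1 := card_tau_pred hF h2 (fun x => ¬ Commute (dSU hF) x ∧
      ∀ y : Cfsg.SU 3 F q, y ≠ 1 → y * y = 1 → ¬ (Commute (dSU hF) y ∧ Commute y x))
  rw [Nat.card_congr (Equiv.subtypeEquivRight (fun u => dist_three_iff hF h2 u)),
    card_dist_three_vec hF, hcnt_two_zero hF] at h1
  rw [Nat.card_congr (Equiv.subtypeEquivRight (fun x => by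
    rw [and_assoc] : ∀ x : Cfsg.SU 3 F q, (x ≠ 1 ∧ x * x = 1 ∧ ¬ Commute (dSU hF) x ∧
      ∀ y : Cfsg.SU 3 F q, y ≠ 1 → y * y = 1 → ¬ (Commute (dSU hF) y ∧ Commute y x)) ↔
      ((x ≠ 1 ∧ x * x = 1) ∧ ¬ Commute (dSU hF) x ∧
      ∀ y : Cfsg.SU 3 F q, y ≠ 1 → y * y = 1 → ¬ (Commute (dSU hF) y ∧ Commute y x))))]
  apply Nat.eq_of_mul_eq_mul_left (show 0 < q + 1 by omega)
  rw [← h1]; ring

section transport

variable {G : Type*} [Group G]

theorem commute_mulEquiv_iff (φ : G ≃* G) (a b : G) : Commute (φ a) (φ b) ↔ Commute a b := by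
  constructor
  · intro h
    have : φ (a * b) = φ (b * a) := by rw [map_mul, map_mul]; exact h.eq
    exact φ.injective this
  · intro h; exact h.map φ

theorem sq_map_iff (φ : G ≃* G) (a : G) : φ a * φ a = 1 ↔ a * a = 1 := by
  rw [← map_mul, MulEquiv.map_eq_one_iff]

theorem card_S1_map (φ : G ≃* G) (t : G) :
    Nat.card {x : G // x ≠ 1 ∧ x * x = 1 ∧ x ≠ φ t ∧ Commute (φ t) x}
      = Nat.card {x : G // x ≠ 1 ∧ x * x = 1 ∧ x ≠ t ∧ Commute t x} := by
  symm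
  refine Nat.card_congr (Equiv.subtypeEquiv φ.toEquiv (fun x => ?_))
  change _ ↔ (φ x ≠ 1 ∧ φ x * φ x = 1 ∧ φ x ≠ φ t ∧ Commute (φ t) (φ x))
  rw [commute_mulEquiv_iff, sq_map_iff, Ne, Ne, Ne, Ne, MulEquiv.map_eq_one_iff, φ.injective.eq_iff]

theorem card_S3_map (φ : G ≃* G) (t : G) :
    Nat.card {x : G // x ≠ 1 ∧ x * x = 1 ∧ ¬ Commute (φ t) x ∧
        ∀ y : G, y ≠ 1 → y * y = 1 → ¬ (Commute (φ t) y ∧ Commute y x)}
      = Nat.card {x : G // x ≠ 1 ∧ x * x = 1 ∧ ¬ Commute t x ∧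
        ∀ y : G, y ≠ 1 → y * y = 1 → ¬ (Commute t y ∧ Commute y x)} := by
  symm
  refine Nat.card_congr (Equiv.subtypeEquiv φ.toEquiv (fun x => ?_))
  change _ ↔ (φ x ≠ 1 ∧ φ x * φ x = 1 ∧ ¬ Commute (φ t) (φ x) ∧
        ∀ y : G, y ≠ 1 → y * y = 1 → ¬ (Commute (φ t) y ∧ Commute y (φ x)))
  have : (∀ y : G, y ≠ 1 → y * y = 1 → ¬ (Commute (φ t) y ∧ Commute y (φ x))) ↔
      ∀ y : G, φ y ≠ 1 → φ y * φ y = 1 → ¬ (Commute (φ t) (φ y) ∧ Commute (φ y) (φ x)) :=
    φ.surjective.forall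
  rw [this]
  simp only [commute_mulEquiv_iff, sq_map_iff, Ne, MulEquiv.map_eq_one_iff]

theorem card_split {α : Type*} [Finite α] (p r : α → Prop) :
    Nat.card {x // p x} = Nat.card {x // p x ∧ r x} + Nat.card {x // p x ∧ ¬ r x} := by
  classical
  have := Fintype.ofFinite α
  rw [Nat.card_eq_fintype_card, Nat.card_eq_fintype_card, Nat.card_eq_fintype_card,
    Fintype.card_subtype, Fintype.card_subtype, Fintype.card_subtype, ← Finset.filter_filter,
    ← Finset.filter_filter, Finset.card_filter_add_card_filter_not]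

/-- the involutions split by distance from `t` -/
theorem card_invol_split [Finite G] (t : G) (ht : t ≠ 1) (ht2 : t * t = 1) :
    Nat.card {x : G // x ≠ 1 ∧ x * x = 1} =
      1 + Nat.card {x : G // x ≠ 1 ∧ x * x = 1 ∧ x ≠ t ∧ Commute t x}
      + Nat.card {x : G // x ≠ 1 ∧ x * x = 1 ∧ ¬ Commute t x ∧
        ∃ y : G, y ≠ 1 ∧ y * y = 1 ∧ Commute t y ∧ Commute y x}
      + Nat.card {x : G // x ≠ 1 ∧ x * x = 1 ∧ ¬ Commute t x ∧
        ∀ y : G, y ≠ 1 → y * y = 1 → ¬ (Commute t y ∧ Commute y x)} := by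
  rw [card_split (fun x : G => x ≠ 1 ∧ x * x = 1) (fun x => Commute t x),
    card_split (fun x : G => (x ≠ 1 ∧ x * x = 1) ∧ Commute t x) (fun x => x = t),
    card_split (fun x : G => (x ≠ 1 ∧ x * x = 1) ∧ ¬ Commute t x)
      (fun x => ∃ y : G, y ≠ 1 ∧ y * y = 1 ∧ Commute t y ∧ Commute y x)]
  have e1 : Nat.card {x : G // ((x ≠ 1 ∧ x * x = 1) ∧ Commute t x) ∧ x = t} = 1 := by
    rw [Nat.card_eq_one_iff_unique]
    refine ⟨⟨fun a b => Subtype.ext (a.2.2.trans b.2.2.symm)⟩, ⟨⟨t, ⟨⟨ht, ht2⟩, Commute.refl t⟩, rfl⟩⟩⟩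
  have e2 : Nat.card {x : G // ((x ≠ 1 ∧ x * x = 1) ∧ Commute t x) ∧ ¬ x = t}
      = Nat.card {x : G // x ≠ 1 ∧ x * x = 1 ∧ x ≠ t ∧ Commute t x} :=
    Nat.card_congr (Equiv.subtypeEquivRight (fun x => by tauto))
  have e3 : Nat.card {x : G // ((x ≠ 1 ∧ x * x = 1) ∧ ¬ Commute t x) ∧
        ∃ y : G, y ≠ 1 ∧ y * y = 1 ∧ Commute t y ∧ Commute y x}
      = Nat.card {x : G // x ≠ 1 ∧ x * x = 1 ∧ ¬ Commute t x ∧
        ∃ y : G, y ≠ 1 ∧ y * y = 1 ∧ Commute t y ∧ Commute y x} :=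
    Nat.card_congr (Equiv.subtypeEquivRight (fun x => by rw [and_assoc, and_assoc]))
  have e4 : Nat.card {x : G // ((x ≠ 1 ∧ x * x = 1) ∧ ¬ Commute t x) ∧
        ¬ ∃ y : G, y ≠ 1 ∧ y * y = 1 ∧ Commute t y ∧ Commute y x}
      = Nat.card {x : G // x ≠ 1 ∧ x * x = 1 ∧ ¬ Commute t x ∧
        ∀ y : G, y ≠ 1 → y * y = 1 → ¬ (Commute t y ∧ Commute y x)} :=
    Nat.card_congr (Equiv.subtypeEquivRight (fun x => by
      rw [and_assoc, and_assoc]
      refine and_congr_right (fun _ => and_congr_right (fun _ => and_congr_right (fun _ => ?_)))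
      constructor
      · intro h y hy1 hy2 hc
        exact h ⟨y, hy1, hy2, hc.1, hc.2⟩
      · rintro h ⟨y, hy1, hy2, hc1, hc2⟩
        exact h y hy1 hy2 ⟨hc1, hc2⟩))
  rw [e1, e2, e3, e4]
  ring

end transport

end Cfsg.Agent.Lib.Helper62
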