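import Cfsg.Agent.Lib.Helper62.PSL3Invol
import Cfsg.Agent.Lib.Helper62.GU2Sylow
import Cfsg.Agent.Lib.Helper5.FormWitt
import Cfsg.Agent.Lib.Helper5.SUCenter
import Cfsg.Agent.Lib.Helper5.HermCount
import Cfsg.Agent.Lib.Helper4.ConjCount

set_option autoImplicit false
open scoped MatrixGroups

namespace Cfsg.Agent.Lib.Helper62

open Matrix Cfsg.Agent.Lib.Helper13 Cfsg.Agent.Lib.Helper5

section general

variable {F : Type*} [Field F]

theorem blk3_inj {A B : Matrix (Fin 2) (Fin 2) F} {c d : F} (h : blk3 A c = blk3 B d) :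
    A = B ∧ c = d := by
  have e : ∀ i j, blk3 A c i j = blk3 B d i j := fun i j => by rw [h]
  have e00 := e 0 0
  have e01 := e 0 1
  have e10 := e 1 0
  have e11 := e 1 1
  have e22 := e 2 2
  simp [blk3] at e00 e01 e10 e11 e22
  refine ⟨?_, e22⟩
  ext i j
  fin_cases i <;> fin_cases j <;> assumption

theorem blk3_neg_one : blk3 (-1 : Matrix (Fin 2) (Fin 2) F) 1 = dInv F := by
  ext i j
  fin_cases i <;> fin_cases j <;> simp [blk3, dInv]

/-- a `2 × 2` matrix of determinant one and square one is `±1` -/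
theorem mat2_invol_det_one (h2 : (2 : F) ≠ 0) (B : Matrix (Fin 2) (Fin 2) F) (hB : B * B = 1)
    (hd : B.det = 1) : B = 1 ∨ B = -1 := by
  have e : ∀ i j, (B * B) i j = (1 : Matrix (Fin 2) (Fin 2) F) i j := fun i j => by rw [hB]
  have e00 := e 0 0
  have e01 := e 0 1
  have e10 := e 1 0
  have e11 := e 1 1
  rw [Matrix.det_fin_two] at hd
  simp [Matrix.mul_apply, Fin.sum_univ_two] at e00 e01 e10 e11
  have hs : B 0 0 * (B 0 0 + B 1 1) = 2 := by linear_combination e00 + hd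
  have hs0 : B 0 0 + B 1 1 ≠ 0 := fun h => by rw [h, mul_zero] at hs; exact h2 hs.symm
  have hb : B 0 1 = 0 := by
    have : B 0 1 * (B 0 0 + B 1 1) = 0 := by linear_combination e01
    exact (mul_eq_zero.mp this).resolve_right hs0
  have hc : B 1 0 = 0 := by
    have : B 1 0 * (B 0 0 + B 1 1) = 0 := by linear_combination e10
    exact (mul_eq_zero.mp this).resolve_right hs0
  rw [hb, hc] at hd e00 e11
  simp at hd e00 e11
  have ha0 : B 0 0 ≠ 0 := fun h => by rw [h] at hd; simp at hd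
  have had : B 1 1 = B 0 0 := mul_left_cancel₀ ha0 (by rw [hd, e00])
  have : (B 0 0 - 1) * (B 0 0 + 1) = 0 := by linear_combination e00
  rcases mul_eq_zero.mp this with h | h
  · left
    have h' : B 0 0 = 1 := by linear_combination h
    ext i j
    fin_cases i <;> fin_cases j <;> simp [hb, hc, had, h']
  · right
    have h' : B 0 0 = -1 := by linear_combination h
    ext i j
    fin_cases i <;> fin_cases j <;> simp [hb, hc, had, h']

/-- a non-scalar `2 × 2` involution has determinant `-1` -/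
theorem mat2_invol_det (h2 : (2 : F) ≠ 0) (B : Matrix (Fin 2) (Fin 2) F) (hB : B * B = 1)
    (h1 : B ≠ 1) (h1' : B ≠ -1) : B.det = -1 := by
  have hd : B.det * B.det = 1 := by rw [← Matrix.det_mul, hB, Matrix.det_one]
  have : (B.det - 1) * (B.det + 1) = 0 := by linear_combination hd
  rcases mul_eq_zero.mp this with h | h
  · rcases mat2_invol_det_one h2 B hB (by linear_combination h) with h | h
    · exact absurd h h1
    · exact absurd h h1'
  · linear_combination h

/-- three pairwise commuting distinct involutions of `SL₃`: the third is the product -/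
theorem sl3_third_invol (h2 : (2 : F) ≠ 0) (T X Y : Matrix (Fin 3) (Fin 3) F)
    (hT : T * T = 1) (hX : X * X = 1) (hY : Y * Y = 1) (dT : T.det = 1) (dX : X.det = 1)
    (dY : Y.det = 1) (T1 : T ≠ 1) (X1 : X ≠ 1) (Y1 : Y ≠ 1) (XT : X ≠ T) (YT : Y ≠ T) (YX : Y ≠ X)
    (cTX : T * X = X * T) (cTY : T * Y = Y * T) (cXY : X * Y = Y * X) : Y = T * X := by
  obtain ⟨P, hP, hTP⟩ := exists_conj_dInv h2 T hT dT T1
  have hPu : IsUnit P.det := by rw [hP]; exact isUnit_one
  have hPi : P⁻¹ * P = 1 := Matrix.nonsing_inv_mul P hPu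
  have hPi' : P * P⁻¹ = 1 := Matrix.mul_nonsing_inv P hPu
  have hdi : (P⁻¹).det = 1 := by
    have := congrArg Matrix.det hPi
    rw [Matrix.det_mul, hP, mul_one, Matrix.det_one] at this
    exact this
  have hTc : P⁻¹ * T * P = dInv F := by rw [mul_assoc, hTP, ← mul_assoc, hPi, one_mul]
  -- conjugation facts
  have cj : ∀ A B : Matrix (Fin 3) (Fin 3) F, (P⁻¹ * A * P) * (P⁻¹ * B * P) = P⁻¹ * (A * B) * P := by
    intro A B
    calc (P⁻¹ * A * P) * (P⁻¹ * B * P) = P⁻¹ * A * (P * P⁻¹) * B * P := by simp only [mul_assoc]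
      _ = P⁻¹ * (A * B) * P := by rw [hPi', mul_one]; simp only [mul_assoc]
  have cinj : ∀ A B : Matrix (Fin 3) (Fin 3) F, P⁻¹ * A * P = P⁻¹ * B * P → A = B := by
    intro A B h
    calc A = P * (P⁻¹ * A * P) * P⁻¹ := by
            rw [← mul_assoc, ← mul_assoc, hPi', one_mul, mul_assoc, hPi', mul_one]
      _ = P * (P⁻¹ * B * P) * P⁻¹ := by rw [h]
      _ = B := by rw [← mul_assoc, ← mul_assoc, hPi', one_mul, mul_assoc, hPi', mul_one]
  have cone : P⁻¹ * 1 * P = 1 := by rw [mul_one, hPi]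
  have cdet : ∀ A : Matrix (Fin 3) (Fin 3) F, (P⁻¹ * A * P).det = A.det := by
    intro A; rw [Matrix.det_mul, Matrix.det_mul, hP, hdi, one_mul, mul_one]
  set X' := P⁻¹ * X * P with hX'
  set Y' := P⁻¹ * Y * P with hY'
  have hXb := eq_blk3_of_twisted_comm h2 X' (by rw [hX', cdet, dX]) 1 (by
    rw [one_smul, ← hTc, hX', cj, cj, cTX])
  have hYb := eq_blk3_of_twisted_comm h2 Y' (by rw [hY', cdet, dY]) 1 (by
    rw [one_smul, ← hTc, hY', cj, cj, cTY])
  set A := (!![X' 0 0, X' 0 1; X' 1 0, X' 1 1] : Matrix (Fin 2) (Fin 2) F) with hA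
  set B := (!![Y' 0 0, Y' 0 1; Y' 1 0, Y' 1 1] : Matrix (Fin 2) (Fin 2) F) with hB
  have hXX : X' * X' = 1 := by rw [hX', cj, hX, cone]
  have hYY : Y' * Y' = 1 := by rw [hY', cj, hY, cone]
  have hXY : X' * Y' = Y' * X' := by rw [hX', hY', cj, cj, cXY]
  have dX' : X'.det = 1 := by rw [hX', cdet, dX]
  have dY' : Y'.det = 1 := by rw [hY', cdet, dY]
  rw [hXb, det_blk3] at dX'
  rw [hYb, det_blk3] at dY'
  have hAA : A * A = 1 := by
    have := hXX
    rw [hXb, blk3_mul, ← blk3_one] at this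
    exact (blk3_inj this).1
  have hBB : B * B = 1 := by
    have := hYY
    rw [hYb, blk3_mul, ← blk3_one] at this
    exact (blk3_inj this).1
  have hAB : A * B = B * A := by
    have := hXY
    rw [hXb, hYb, blk3_mul, blk3_mul] at this
    exact (blk3_inj this).1
  have hA1 : A ≠ 1 := by
    intro h
    rw [h, Matrix.det_one, one_mul] at dX'
    apply X1
    apply cinj
    rw [cone, ← hX', hXb, h, dX', blk3_one]
  have hA2 : A ≠ -1 := by
    intro h
    have hd : (-1 : Matrix (Fin 2) (Fin 2) F).det = 1 := by rw [Matrix.det_fin_two]; simp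
    rw [h, hd, one_mul] at dX'
    apply XT
    apply cinj
    rw [hTc, ← hX', hXb, h, dX', blk3_neg_one]
  have hB1 : B ≠ 1 := by
    intro h
    rw [h, Matrix.det_one, one_mul] at dY'
    apply Y1
    apply cinj
    rw [cone, ← hY', hYb, h, dY', blk3_one]
  have hB2 : B ≠ -1 := by
    intro h
    have hd : (-1 : Matrix (Fin 2) (Fin 2) F).det = 1 := by rw [Matrix.det_fin_two]; simp
    rw [h, hd, one_mul] at dY'
    apply YT
    apply cinj
    rw [hTc, ← hY', hYb, h, dY', blk3_neg_one]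
  have dA := mat2_invol_det h2 A hAA hA1 hA2
  have dB := mat2_invol_det h2 B hBB hB1 hB2
  have hx22 : X' 2 2 = -1 := by rw [dA] at dX'; linear_combination -dX'
  have hy22 : Y' 2 2 = -1 := by rw [dB] at dY'; linear_combination -dY'
  have hABsq : (A * B) * (A * B) = 1 := by
    calc (A * B) * (A * B) = A * (B * A) * B := by simp only [mul_assoc]
      _ = (A * A) * (B * B) := by rw [← hAB]; simp only [mul_assoc]
      _ = 1 := by rw [hAA, hBB, one_mul]
  have hABd : (A * B).det = 1 := by rw [Matrix.det_mul, dA, dB]; ring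
  have hBA : B = -A := by
    rcases mat2_invol_det_one h2 (A * B) hABsq hABd with h | h
    · exfalso
      apply YX
      apply cinj
      have : B = A := by
        calc B = (A * A) * B := by rw [hAA, one_mul]
          _ = A * (A * B) := by rw [mul_assoc]
          _ = A := by rw [h, mul_one]
      rw [← hX', ← hY', hXb, hYb, this, hx22, hy22]
    · calc B = (A * A) * B := by rw [hAA, one_mul]
        _ = A * (A * B) := by rw [mul_assoc]
        _ = -A := by rw [h, mul_neg, mul_one]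
  apply cinj
  rw [← cj, hTc, ← hX', ← hY', hXb, hYb, ← blk3_neg_one, blk3_mul, hBA, hx22, hy22]
  simp

end general

section unitary

variable {F : Type*} [Field F] [Fintype F] {q : ℕ}

local notation "H3" => Cfsg.hermForm 3 F q

theorem blk3_unitary_mul (hq : q ≠ 0) (B : Matrix (Fin 2) (Fin 2) F) (c : F) :
    (blk3 B c)ᵀ * (blk3 B c).map (· ^ q) = blk3 (Bᵀ * B.map (· ^ q)) (c * c ^ q) := by
  ext i j
  fin_cases i <;> fin_cases j <;>
    simp [blk3, Matrix.mul_apply, Fin.sum_univ_three, Fin.sum_univ_two, hq]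

theorem blk3_unitary_iff (hq : q ≠ 0) (B : Matrix (Fin 2) (Fin 2) F) (c : F) :
    (blk3 B c)ᵀ * (blk3 B c).map (· ^ q) = 1 ↔ Bᵀ * B.map (· ^ q) = 1 ∧ c ^ (q + 1) = 1 := by
  rw [blk3_unitary_mul hq, ← blk3_one, pow_succ']
  constructor
  · intro h; exact blk3_inj h
  · rintro ⟨h1, h2⟩; rw [h1, h2]

theorem eq_dInv_of_fix (hq : q ≠ 0) (h2 : (2 : F) ≠ 0) (T : Matrix (Fin 3) (Fin 3) F)
    (hT : T * T = 1) (hdet : T.det = 1) (hne : T ≠ 1) (hU : Tᵀ * T.map (· ^ q) = 1)
    (hfix : T *ᵥ (Pi.single 2 1) = Pi.single 2 1) : T = dInv F := by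
  rw [Matrix.mulVec_single_one] at hfix
  have f0 : T 0 2 = 0 := by simpa using congrFun hfix 0
  have f1 : T 1 2 = 0 := by simpa using congrFun hfix 1
  have f2 : T 2 2 = 1 := by simpa using congrFun hfix 2
  have e : ∀ i j, (Tᵀ * T.map (· ^ q)) i j = (1 : Matrix (Fin 3) (Fin 3) F) i j :=
    fun i j => by rw [hU]
  have e20 := e 2 0
  have e21 := e 2 1
  simp [Matrix.mul_apply, Fin.sum_univ_three, f0, f1, f2] at e20 e21
  have hTB : T = blk3 !![T 0 0, T 0 1; T 1 0, T 1 1] 1 := by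
    ext i j
    fin_cases i <;> fin_cases j <;> simp [blk3, f0, f1, f2, e20.1, e21.1]
  set B := (!![T 0 0, T 0 1; T 1 0, T 1 1] : Matrix (Fin 2) (Fin 2) F) with hB
  have hBB : B * B = 1 := by
    have := hT
    rw [hTB, blk3_mul, ← blk3_one] at this
    exact (blk3_inj this).1
  have hBd : B.det = 1 := by
    have := hdet
    rw [hTB, det_blk3, mul_one] at this
    exact this
  rcases mat2_invol_det_one h2 B hBB hBd with h | h
  · exfalso; apply hne; rw [hTB, h, blk3_one]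
  · rw [hTB, h, blk3_neg_one]

theorem dInv_mulVec_add (y : Fin 3 → F) :
    y + dInv F *ᵥ y = (2 * y 2) • (Pi.single 2 1 : Fin 3 → F) := by
  funext i
  fin_cases i <;> simp [dInv, Matrix.mulVec, dotProduct, Fin.sum_univ_three] <;> ring

theorem exists_SU_conj_dInv (hF : Fintype.card F = q ^ 2) (h2 : (2 : F) ≠ 0)
    (T : Matrix (Fin 3) (Fin 3) F) (hT : T * T = 1) (hdet : T.det = 1) (hne : T ≠ 1)
    (hpres : ∀ u v, H3 (T *ᵥ u) (T *ᵥ v) = H3 u v) :
    ∃ G : Matrix (Fin 3) (Fin 3) F, G.det = 1 ∧ (∀ u v, H3 (G *ᵥ u) (G *ᵥ v) = H3 u v) ∧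
      T * G = G * dInv F := by
  have hq2 := two_le_of_card_sq hF
  have hq0 : q ≠ 0 := by omega
  obtain ⟨P, hP, hTP⟩ := exists_conj_dInv h2 T hT hdet hne
  have hPu : IsUnit P.det := by rw [hP]; exact isUnit_one
  have hPi : P⁻¹ * P = 1 := Matrix.nonsing_inv_mul P hPu
  have hPi' : P * P⁻¹ = 1 := Matrix.mul_nonsing_inv P hPu
  set e2 : Fin 3 → F := Pi.single 2 1 with he2
  set w : Fin 3 → F := P *ᵥ e2 with hw
  have hDe : dInv F *ᵥ e2 = e2 := by
    funext i
    fin_cases i <;> simp [dInv, he2, Matrix.mulVec, dotProduct, Fin.sum_univ_three]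
  have hTw : T *ᵥ w = w := by
    rw [hw, Matrix.mulVec_mulVec, hTP, ← Matrix.mulVec_mulVec, hDe]
  have hsum : ∀ y : Fin 3 → F, P *ᵥ y + T *ᵥ (P *ᵥ y) = (2 * y 2) • w := by
    intro y
    rw [Matrix.mulVec_mulVec, hTP, ← Matrix.mulVec_mulVec, ← Matrix.mulVec_add, dInv_mulVec_add,
      Matrix.mulVec_smul]
  have hw0 : w ≠ 0 := by
    intro h
    have : e2 = 0 := by
      calc e2 = (P⁻¹ * P) *ᵥ e2 := by rw [hPi, Matrix.one_mulVec]
        _ = P⁻¹ *ᵥ w := by rw [← Matrix.mulVec_mulVec]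
        _ = 0 := by rw [h, Matrix.mulVec_zero]
    have := congrFun this 2
    simp [he2] at this
  have hc0 : H3 w w ≠ 0 := by
    intro h0
    apply hw0
    funext i
    have hx : ∀ x : Fin 3 → F, H3 x w = 0 := by
      intro x
      have h1 := hsum (P⁻¹ *ᵥ x)
      rw [Matrix.mulVec_mulVec, hPi', Matrix.one_mulVec] at h1
      have h3 : H3 (x + T *ᵥ x) w = 2 * H3 x w := by
        rw [hermForm_add_left]
        nth_rewrite 2 [← hTw]
        rw [hpres]; ring
      rw [h1, hermForm_smul_left, h0, mul_zero] at h3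
      exact (mul_eq_zero.mp h3.symm).resolve_left h2
    have := hx (Pi.single i 1)
    rw [hermForm_single_left] at this
    exact pow_eq_zero_iff hq0 |>.mp this
  obtain ⟨l, hl0, hl⟩ := exists_norm_eq hF (H3 w w) hc0 (hermForm_swap hF w w)
  set w' : Fin 3 → F := l⁻¹ • w with hw'
  have hw'0 : w' ≠ 0 := smul_ne_zero (inv_ne_zero hl0) hw0
  have hw'n : H3 w' w' = 1 := by
    rw [hw', hermForm_smul_left, hermForm_smul_right, ← hl, inv_pow]
    field_simp
    ring
  have he2n : H3 e2 e2 = 1 := by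
    rw [he2, hermForm_single_left]; simp
  have he20 : e2 ≠ 0 := by
    intro h
    have := congrFun h 2
    simp [he2] at this
  obtain ⟨A, hA⟩ := exists_GU_mulVec_eq hF 3 e2 w' he20 hw'0 (by rw [he2n, hw'n])
  set Am : Matrix (Fin 3) (Fin 3) F := A.1.1 with hAm
  set Ai : Matrix (Fin 3) (Fin 3) F := (A⁻¹).1.1 with hAi
  have hAiAm : Ai * Am = 1 := by
    have : (A⁻¹ * A).1.1 = 1 := by rw [inv_mul_cancel]; rfl
    exact this
  have hAmAi : Am * Ai = 1 := by
    have : (A * A⁻¹).1.1 = 1 := by rw [mul_inv_cancel]; rfl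
    exact this
  have pAm : ∀ u v, H3 (Am *ᵥ u) (Am *ᵥ v) = H3 u v := A.2
  have pAi : ∀ u v, H3 (Ai *ᵥ u) (Ai *ᵥ v) = H3 u v := (A⁻¹).2
  have hTw' : T *ᵥ w' = w' := by rw [hw', Matrix.mulVec_smul, hTw]
  have hD : Ai * T * Am = dInv F := by
    apply eq_dInv_of_fix hq0 h2
    · calc Ai * T * Am * (Ai * T * Am) = Ai * T * (Am * Ai) * T * Am := by simp only [mul_assoc]
        _ = Ai * (T * T) * Am := by rw [hAmAi, mul_one]; simp only [mul_assoc]
        _ = 1 := by rw [hT, mul_one, hAiAm]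
    · rw [Matrix.det_mul, Matrix.det_mul, hdet, mul_one, ← Matrix.det_mul, hAiAm, Matrix.det_one]
    · intro h
      apply hne
      calc T = (Am * Ai) * T * (Am * Ai) := by rw [hAmAi, one_mul, mul_one]
        _ = Am * (Ai * T * Am) * Ai := by simp only [mul_assoc]
        _ = 1 := by rw [h, mul_one, hAmAi]
    · rw [← preserves_hermForm_iff hF]
      intro u v
      rw [← Matrix.mulVec_mulVec, ← Matrix.mulVec_mulVec, ← Matrix.mulVec_mulVec,
        ← Matrix.mulVec_mulVec, pAi, hpres, pAm]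
    · rw [← Matrix.mulVec_mulVec, ← Matrix.mulVec_mulVec]
      change Ai *ᵥ T *ᵥ (A.1.1 *ᵥ e2) = e2
      rw [hA, hTw', ← hA, Matrix.mulVec_mulVec]
      change (Ai * Am) *ᵥ e2 = e2
      rw [hAiAm, Matrix.one_mulVec]
  have hTA : T * Am = Am * dInv F := by
    rw [← hD, ← mul_assoc, ← mul_assoc, hAmAi, one_mul]
  have hδ : Am.det ^ (q + 1) = 1 := det_pow_eq_one_of_preserves hF Am pAm
  have hδ0 : Am.det ≠ 0 := fun h => by rw [h, zero_pow (by omega)] at hδ; exact zero_ne_one hδ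
  refine ⟨Am * Matrix.diagonal ![1, 1, Am.det⁻¹], ?_, ?_, ?_⟩
  · rw [Matrix.det_mul, Matrix.det_diagonal, Fin.prod_univ_three]
    simp [hδ0]
  · intro u v
    rw [← Matrix.mulVec_mulVec, ← Matrix.mulVec_mulVec, pAm]
    apply diagonal_preserves
    intro i
    fin_cases i <;> simp [hδ]
  · rw [← mul_assoc, hTA, mul_assoc, mul_assoc]
    congr 1
    ext i j
    fin_cases i <;> fin_cases j <;>
      simp [dInv, Matrix.mul_apply, Fin.sum_univ_three, Matrix.diagonal_apply]

theorem dInv_preserves (hF : Fintype.card F = q ^ 2) (u v : Fin 3 → F) :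
    H3 (dInv F *ᵥ u) (dInv F *ᵥ v) = H3 u v := by
  have : dInv F = Matrix.diagonal ![-1, -1, 1] := by
    ext i j
    fin_cases i <;> fin_cases j <;> simp [dInv]
  rw [this]
  apply diagonal_preserves
  intro i
  fin_cases i <;> simp [neg_one_pow_q_add_one hF]

/-- `diag(-1,-1,1)` in `SU₃(q)` -/
def dSU (hF : Fintype.card F = q ^ 2) : Cfsg.SU 3 F q :=
  mkSU (dInv F) (by rw [Matrix.det_fin_three]; simp [dInv]) (dInv_preserves hF)

theorem su3_invol_conj_dSU (hF : Fintype.card F = q ^ 2) (h2 : (2 : F) ≠ 0) (t : Cfsg.SU 3 F q)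
    (ht : t ≠ 1) (ht2 : t * t = 1) : ∃ g : Cfsg.SU 3 F q, g * dSU hF * g⁻¹ = t := by
  obtain ⟨G, hG1, hG2, hG3⟩ := exists_SU_conj_dInv hF h2 t.1.1
    (by have := congrArg (fun x : Cfsg.SU 3 F q => x.1.1) ht2; exact this) t.1.2
    (fun h => ht (SU_ext h)) t.2
  refine ⟨mkSU G hG1 hG2, ?_⟩
  rw [mul_inv_eq_iff_eq_mul]
  exact SU_ext hG3.symm

theorem card_centralizer_conj {G : Type*} [Group G] (g x : G) :
    Nat.card (Subgroup.centralizer {g * x * g⁻¹}) = Nat.card (Subgroup.centralizer {x}) := by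
  refine Nat.card_congr ⟨fun y => ⟨g⁻¹ * y.1 * g, ?_⟩, fun y => ⟨g * y.1 * g⁻¹, ?_⟩, ?_, ?_⟩
  · have := Subgroup.mem_centralizer_singleton_iff.mp y.2
    rw [Subgroup.mem_centralizer_singleton_iff]
    calc g⁻¹ * y.1 * g * x = g⁻¹ * (y.1 * (g * x * g⁻¹)) * g := by group
      _ = g⁻¹ * ((g * x * g⁻¹) * y.1) * g := by rw [this]
      _ = x * (g⁻¹ * y.1 * g) := by group
  · have := Subgroup.mem_centralizer_singleton_iff.mp y.2
    rw [Subgroup.mem_centralizer_singleton_iff]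
    calc g * y.1 * g⁻¹ * (g * x * g⁻¹) = g * (y.1 * x) * g⁻¹ := by group
      _ = g * (x * y.1) * g⁻¹ := by rw [this]
      _ = g * x * g⁻¹ * (g * y.1 * g⁻¹) := by group
  · intro y; apply Subtype.ext; simp only; group
  · intro y; apply Subtype.ext; simp only; group

theorem card_centralizer_dSU (hF : Fintype.card F = q ^ 2) (h2 : (2 : F) ≠ 0) :
    Nat.card (Subgroup.centralizer {dSU hF}) = Nat.card (Cfsg.GU 2 F q) := by
  have hq2 := two_le_of_card_sq hF
  have hq0 : q ≠ 0 := by omega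
  symm
  have hdet0 : ∀ A : Cfsg.GU 2 F q, A.1.1.det ≠ 0 := fun A =>
    ((Matrix.isUnit_iff_isUnit_det _).mp A.1.isUnit).ne_zero
  have hpres : ∀ A : Cfsg.GU 2 F q, ∀ u v, H3 (blk3 A.1.1 (A.1.1.det)⁻¹ *ᵥ u)
      (blk3 A.1.1 (A.1.1.det)⁻¹ *ᵥ v) = H3 u v := by
    intro A
    rw [preserves_hermForm_iff hF, blk3_unitary_iff hq0]
    refine ⟨(preserves_hermForm_iff hF _).mp A.2, ?_⟩
    rw [inv_pow, det_pow_eq_one_of_preserves hF A.1.1 A.2, inv_one]
  refine Nat.card_congr (Equiv.ofBijective (fun A => ⟨mkSU (blk3 A.1.1 (A.1.1.det)⁻¹)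
    (by rw [det_blk3]; exact mul_inv_cancel₀ (hdet0 A)) (hpres A), ?_⟩) ⟨?_, ?_⟩)
  · rw [Subgroup.mem_centralizer_singleton_iff]
    apply SU_ext
    exact blk3_comm_dInv _ _
  · intro A B h
    have h' := congrArg (fun x : Subgroup.centralizer {dSU hF} => x.1.1.1) h
    apply Subtype.ext
    apply Units.ext
    exact (blk3_inj h').1
  · rintro ⟨X, hX⟩
    rw [Subgroup.mem_centralizer_singleton_iff] at hX
    have hc : X.1.1 * dInv F = dInv F * X.1.1 :=
      congrArg (fun x : Cfsg.SU 3 F q => x.1.1) hX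
    have hb := eq_blk3_of_twisted_comm h2 X.1.1 X.1.2 1 (by rw [one_smul, hc])
    set B := (!![X.1.1 0 0, X.1.1 0 1; X.1.1 1 0, X.1.1 1 1] : Matrix (Fin 2) (Fin 2) F) with hB
    have hd := X.1.2
    rw [hb, det_blk3] at hd
    have hB0 : B.det ≠ 0 := left_ne_zero_of_mul_eq_one hd
    have hU := (preserves_hermForm_iff hF _).mp X.2
    change (X.1.1)ᵀ * (X.1.1).map (· ^ q) = 1 at hU
    rw [hb, blk3_unitary_iff hq0] at hU
    refine ⟨⟨Matrix.GeneralLinearGroup.mkOfDetNeZero B hB0, (preserves_hermForm_iff hF _).mpr hU.1⟩,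
      ?_⟩
    apply Subtype.ext
    apply SU_ext
    change blk3 B (B.det)⁻¹ = X.1.1
    rw [hb]
    congr 1
    exact (eq_inv_of_mul_eq_one_right hd).symm

theorem card_SU3 (hF : Fintype.card F = q ^ 2) :
    (q + 1) * Nat.card (Cfsg.SU 3 F q) = q ^ 3 * ((q + 1) * (q ^ 2 - 1) * (q ^ 3 + 1)) := by
  rw [card_SU_mul hF (by norm_num), card_GU hF 3]
  simp [Finset.prod_range_succ]

end unitary

end Cfsg.Agent.Lib.Helper62
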